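import Mathlib
import Cfsg.Agent.Helper40.KGLDefs
import Cfsg.Agent.Helper40.KSLDefs

set_option autoImplicit false

namespace Cfsg.Agent.Helper92

open Polynomial Cfsg.Agent.Helper40.KGL Cfsg.Agent.Helper40.KSL
open scoped DirectSum
open Classical

universe u v

theorem kslB2_pow_gcd_mem {G : Type*} [Group G] (D : Subgroup G) (z : G) (a b : ℕ)
    (ha : z ^ a ∈ D) (hb : z ^ b ∈ D) : z ^ Nat.gcd a b ∈ D := by
  have h : (z ^ (Nat.gcd a b : ℤ)) ∈ D := by
    rw [Nat.gcd_eq_gcd_ab, zpow_add, zpow_mul, zpow_mul]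
    exact D.mul_mem (D.zpow_mem (by simpa using ha) _) (D.zpow_mem (by simpa using hb) _)
  simpa using h

theorem kslB2_pow_mgcd_mem {G : Type*} [Group G] (D : Subgroup G) (z : G) (s : Multiset ℕ)
    (h : ∀ e ∈ s, z ^ e ∈ D) : z ^ s.gcd ∈ D := by
  induction s using Multiset.induction_on with
  | empty => simp
  | cons a s ih =>
    rw [Multiset.gcd_cons]
    exact kslB2_pow_gcd_mem D z a s.gcd (h a (Multiset.mem_cons_self a s))
      (ih fun e he => h e (Multiset.mem_cons_of_mem he))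

/-- PIECE B2 -/
theorem index_le_gcd {F : Type u} [Field F] [Fintype F] (s : Multiset ℕ) (D : Subgroup Fˣ)
    (hD : ∀ e ∈ s, ∀ z : Fˣ, z ^ e ∈ D) :
    D.index ≤ Nat.gcd (Fintype.card F - 1) s.gcd := by
  have hq : 0 < Fintype.card F - 1 := by
    have := Fintype.one_lt_card (α := F)
    omega
  have hdpos : 0 < Nat.gcd (Fintype.card F - 1) s.gcd := Nat.gcd_pos_of_pos_left _ hq
  have hz : ∀ z : Fˣ, z ^ Nat.gcd (Fintype.card F - 1) s.gcd ∈ D := by
    intro z
    apply kslB2_pow_gcd_mem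
    · rw [← Fintype.card_units, pow_card_eq_one]
      exact D.one_mem
    · exact kslB2_pow_mgcd_mem D z s fun e he => hD e he z
  haveI : IsCyclic (Fˣ ⧸ D) :=
    isCyclic_of_surjective (QuotientGroup.mk' D) (QuotientGroup.mk'_surjective D)
  have hexp : Monoid.exponent (Fˣ ⧸ D) ∣ Nat.gcd (Fintype.card F - 1) s.gcd := by
    apply Monoid.exponent_dvd_of_forall_pow_eq_one
    intro g
    obtain ⟨z, rfl⟩ := QuotientGroup.mk_surjective g
    rw [← QuotientGroup.mk_pow, QuotientGroup.eq_one_iff]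
    exact hz z
  rw [IsCyclic.exponent_eq_card] at hexp
  rw [Subgroup.index_eq_card]
  exact Nat.le_of_dvd hdpos hexp

end Cfsg.Agent.Helper92
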