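import Mathlib
import Cfsg.Agent.Helper40.KGLDefs
import Cfsg.Agent.Helper40.KSLDefs

set_option autoImplicit false

namespace Cfsg.Agent.Helper92

open Polynomial Cfsg.Agent.Helper40.KGL Cfsg.Agent.Helper40.KSL
open scoped DirectSum
open Classical

universe u v

theorem kslB12_gam_dvd {F : Type u} [Field F] (q n : ℕ) (G : Fin n → F[X]) :
    gamSeq q G ∣ q - 1 ∧ ∀ j : Fin n, G j ≠ 1 → gamSeq q G ∣ j.val + 1 := by
  unfold gamSeq
  refine ⟨Nat.gcd_dvd_left _ _, fun j hj => ?_⟩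
  refine (Nat.gcd_dvd_right _ _).trans ?_
  exact Finset.gcd_dvd (Finset.mem_filter.2 ⟨Finset.mem_univ j, hj⟩)

/-- PIECE B12 -/
theorem gamSeq_sq_le {F : Type u} [Field F] (q n : ℕ) (hq : 2 ≤ q) (hn : 1 ≤ n)
    (G : Fin n → F[X]) (hG : IsSeq n n G) :
    gamSeq q G ^ 2 ≤ 1 + ∑ c ∈ (Nat.gcd n (q - 1)).divisors.filter (fun c => 2 ≤ c),
      (c ^ 2 - 1) * (if ∀ j : Fin n, G j ≠ 1 → c ∣ j.val + 1 then 1 else 0) := by
  obtain ⟨h1, h2⟩ := kslB12_gam_dvd q n G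
  have h3' : gamSeq q G ∣ ∑ j : Fin n, (j.val + 1) * (G j).natDegree := by
    apply Finset.dvd_sum
    intro j _
    by_cases hj : G j = 1
    · rw [hj, Polynomial.natDegree_one, mul_zero]
      exact dvd_zero _
    · exact Dvd.dvd.mul_right (h2 j hj) _
  have h3 : gamSeq q G ∣ n := h3'.trans (dvd_of_eq hG.2)
  have h4 : gamSeq q G ∣ Nat.gcd n (q - 1) := Nat.dvd_gcd h3 h1
  have hpos : 0 < Nat.gcd n (q - 1) := Nat.gcd_pos_of_pos_left _ (by omega)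
  have hγpos : 0 < gamSeq q G := Nat.pos_of_dvd_of_pos h4 hpos
  by_cases hγ : gamSeq q G = 1
  · rw [hγ]
    simp
  · have hγ2 : 2 ≤ gamSeq q G := by omega
    have hmem : gamSeq q G ∈ (Nat.gcd n (q - 1)).divisors.filter (fun c => 2 ≤ c) :=
      Finset.mem_filter.2 ⟨Nat.mem_divisors.2 ⟨h4, hpos.ne'⟩, hγ2⟩
    have hle := Finset.single_le_sum (f := fun c => (c ^ 2 - 1) *
      (if ∀ j : Fin n, G j ≠ 1 → c ∣ j.val + 1 then 1 else 0))
      (fun c _ => Nat.zero_le _) hmem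
    simp only [if_pos h2, mul_one] at hle
    have hsq : 1 ≤ gamSeq q G ^ 2 := Nat.one_le_pow _ _ hγpos
    omega

end Cfsg.Agent.Helper92
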