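import Mathlib
import Cfsg.Agent.Helper40.KGLDefs
import Cfsg.Agent.Helper40.KSLDefs

set_option autoImplicit false

namespace Cfsg.Agent.Helper92

open Polynomial Cfsg.Agent.Helper40.KGL Cfsg.Agent.Helper40.KSL
open scoped DirectSum
open Classical

universe u v

/-- PIECE B13 -/
theorem card_scaled_le {F : Type u} [Field F] (n c : ℕ) (hc : 1 ≤ c) (hcn : c ∣ n)
    (hfin : Finite {G : Fin (n / c) → F[X] // IsSeq (n / c) (n / c) G})
    (S : Finset (Fin n → F[X])) (hS : ∀ G, G ∈ S ↔ IsSeq n n G) :
    (S.filter fun G => ∀ j : Fin n, G j ≠ 1 → c ∣ j.val + 1).card ≤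
      Nat.card {G : Fin (n / c) → F[X] // IsSeq (n / c) (n / c) G} := by
  have hnm : c * (n / c) = n := Nat.mul_div_cancel' hcn
  generalize n / c = m at hfin hnm ⊢
  have hlt : ∀ i : Fin m, c * (i.val + 1) - 1 < n := by
    intro i
    have h1 : c * (i.val + 1) ≤ c * m := Nat.mul_le_mul_left c (by omega)
    have h2 : 1 ≤ c * (i.val + 1) := Nat.mul_pos hc (by omega)
    omega
  let e : Fin m → Fin n := fun i => ⟨c * (i.val + 1) - 1, hlt i⟩
  have he_val : ∀ i : Fin m, (e i).val + 1 = c * (i.val + 1) := by
    intro i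
    have h2 : 1 ≤ c * (i.val + 1) := Nat.mul_pos hc (by omega)
    show c * (i.val + 1) - 1 + 1 = _
    omega
  have he_inj : Function.Injective e := by
    intro i i' h
    have h1 := he_val i
    have h2 := he_val i'
    rw [h] at h1
    have h3 : c * (i.val + 1) = c * (i'.val + 1) := by omega
    have h4 := Nat.eq_of_mul_eq_mul_left (by omega : 0 < c) h3
    exact Fin.ext (by omega)
  have he_surj : ∀ j : Fin n, c ∣ j.val + 1 → ∃ i : Fin m, e i = j := by
    intro j hj
    obtain ⟨t, ht⟩ := hj
    have ht1 : 1 ≤ t := by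
      rcases Nat.eq_zero_or_pos t with h | h
      · subst h
        simp at ht
      · exact h
    have htm : t ≤ m := by
      have h1 : c * t ≤ c * m := by
        rw [← ht, hnm]
        exact j.isLt
      exact Nat.le_of_mul_le_mul_left h1 (by omega)
    refine ⟨⟨t - 1, by omega⟩, ?_⟩
    apply Fin.ext
    show c * (t - 1 + 1) - 1 = j.val
    have h2 : t - 1 + 1 = t := by omega
    rw [h2, ← ht]
    omega
  have hΦ : ∀ G : Fin n → F[X], IsSeq n n G → (∀ j : Fin n, G j ≠ 1 → c ∣ j.val + 1) →
      IsSeq m m (fun i => G (e i)) := by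
    intro G hG hP
    refine ⟨fun i => hG.1 (e i), ?_⟩
    have hsum : ∑ j : Fin n, (j.val + 1) * (G j).natDegree =
        ∑ i : Fin m, ((e i).val + 1) * (G (e i)).natDegree := by
      rw [← Finset.sum_image (s := Finset.univ) (g := e)
        (f := fun j => (j.val + 1) * (G j).natDegree) (fun a _ b _ h => he_inj h)]
      symm
      apply Finset.sum_subset (Finset.subset_univ _)
      intro j _ hj
      have hGj : G j = 1 := by
        by_contra hne
        obtain ⟨i, hi⟩ := he_surj j (hP j hne)
        exact hj (Finset.mem_image.2 ⟨i, Finset.mem_univ i, hi⟩)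
      rw [hGj, Polynomial.natDegree_one, mul_zero]
    have h2 : c * ∑ i : Fin m, (i.val + 1) * (G (e i)).natDegree = c * m := by
      calc c * ∑ i : Fin m, (i.val + 1) * (G (e i)).natDegree
          = ∑ i : Fin m, ((e i).val + 1) * (G (e i)).natDegree := by
            rw [Finset.mul_sum]
            apply Finset.sum_congr rfl
            intro i _
            rw [he_val i, mul_assoc]
        _ = ∑ j : Fin n, (j.val + 1) * (G j).natDegree := hsum.symm
        _ = n := hG.2
        _ = c * m := hnm.symm
    exact Nat.eq_of_mul_eq_mul_left (by omega) h2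
  haveI := hfin
  let Φ : ↥(S.filter fun G => ∀ j : Fin n, G j ≠ 1 → c ∣ j.val + 1) →
      {G : Fin m → F[X] // IsSeq m m G} :=
    fun G => ⟨fun i => G.1 (e i), hΦ G.1 ((hS G.1).1 (Finset.mem_filter.1 G.2).1)
      (Finset.mem_filter.1 G.2).2⟩
  have hinj : Function.Injective Φ := by
    intro G G' h
    apply Subtype.ext
    funext j
    have h' : ∀ i, G.1 (e i) = G'.1 (e i) := fun i => congrFun (congrArg Subtype.val h) i
    by_cases hj : c ∣ j.val + 1
    · obtain ⟨i, rfl⟩ := he_surj j hj
      exact h' i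
    · have h1 : G.1 j = 1 := by
        by_contra hne
        exact hj ((Finset.mem_filter.1 G.2).2 j hne)
      have h2 : G'.1 j = 1 := by
        by_contra hne
        exact hj ((Finset.mem_filter.1 G'.2).2 j hne)
      rw [h1, h2]
  have hcard := Nat.card_le_card_of_injective Φ hinj
  rwa [Nat.card_eq_fintype_card, Fintype.card_coe] at hcard

end Cfsg.Agent.Helper92
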