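import Mathlib
import Cfsg.Agent.Helper40.KGLDefs
import Cfsg.Agent.Helper40.KSLDefs

set_option autoImplicit false

namespace Cfsg.Agent.Helper92

open Polynomial Cfsg.Agent.Helper40.KGL Cfsg.Agent.Helper40.KSL
open scoped DirectSum
open Classical

universe u v

theorem kslB14a_four (q : ℕ) (hq : 2 ≤ q) :
    (q ^ 4 - 1) + ∑ c ∈ (Nat.gcd 4 (q - 1)).divisors.filter (fun c => 2 ≤ c),
      (c ^ 2 - 1) * (q ^ (4 / c) - 1) ≤ (q - 1) * (q ^ (4 - 1) + 3 * q ^ (4 - 2)) := by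
  have hg : Nat.gcd 4 (q - 1) ∣ 4 := Nat.gcd_dvd_left _ _
  have hd : Nat.gcd 4 (q - 1) ∣ q - 1 := Nat.gcd_dvd_right _ _
  generalize Nat.gcd 4 (q - 1) = g at hg hd ⊢
  have hle : g ≤ 4 := Nat.le_of_dvd (by norm_num) hg
  interval_cases g
  · simp at hg
  · obtain ⟨s, rfl⟩ : ∃ s, q = s + 2 := ⟨q - 2, by omega⟩
    have e : (Nat.divisors 1).filter (fun c => 2 ≤ c) = ∅ := by decide
    rw [e, Finset.sum_empty]
    have h1 : (s + 2) ^ 4 = s ^ 4 + 8 * s ^ 3 + 24 * s ^ 2 + 32 * s + 16 := by ring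
    have h2 : (s + 2 - 1) * ((s + 2) ^ (4 - 1) + 3 * (s + 2) ^ (4 - 2)) =
        s ^ 4 + 10 * s ^ 3 + 33 * s ^ 2 + 44 * s + 20 := by
      have e1 : s + 2 - 1 = s + 1 := by omega
      rw [e1]
      norm_num
      ring
    rw [h1, h2]
    omega
  · have hq3 : 3 ≤ q := by
      obtain ⟨m, hm⟩ := hd
      omega
    obtain ⟨s, rfl⟩ : ∃ s, q = s + 3 := ⟨q - 3, by omega⟩
    have e : (Nat.divisors 2).filter (fun c => 2 ≤ c) = {2} := by decide
    rw [e, Finset.sum_singleton]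
    have h1 : (s + 3) ^ 4 = s ^ 4 + 12 * s ^ 3 + 54 * s ^ 2 + 108 * s + 81 := by ring
    have h3 : (s + 3) ^ (4 / 2) = s ^ 2 + 6 * s + 9 := by
      norm_num
      ring
    have h2 : (s + 3 - 1) * ((s + 3) ^ (4 - 1) + 3 * (s + 3) ^ (4 - 2)) =
        s ^ 4 + 14 * s ^ 3 + 69 * s ^ 2 + 144 * s + 108 := by
      have e1 : s + 3 - 1 = s + 2 := by omega
      rw [e1]
      norm_num
      ring
    rw [h1, h2, h3]
    norm_num
    omega
  · omega
  · have hq5 : 5 ≤ q := by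
      obtain ⟨m, hm⟩ := hd
      omega
    obtain ⟨s, rfl⟩ : ∃ s, q = s + 5 := ⟨q - 5, by omega⟩
    have e : (Nat.divisors 4).filter (fun c => 2 ≤ c) = {2, 4} := by decide
    rw [e, Finset.sum_pair (by norm_num)]
    have h1 : (s + 5) ^ 4 = s ^ 4 + 20 * s ^ 3 + 150 * s ^ 2 + 500 * s + 625 := by ring
    have h3 : (s + 5) ^ (4 / 2) = s ^ 2 + 10 * s + 25 := by
      norm_num
      ring
    have h4 : (s + 5) ^ (4 / 4) = s + 5 := by
      norm_num
    have h2 : (s + 5 - 1) * ((s + 5) ^ (4 - 1) + 3 * (s + 5) ^ (4 - 2)) =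
        s ^ 4 + 22 * s ^ 3 + 177 * s ^ 2 + 620 * s + 800 := by
      have e1 : s + 5 - 1 = s + 4 := by omega
      rw [e1]
      norm_num
      ring
    rw [h1, h2, h3, h4]
    norm_num
    omega

theorem kslB14a_five (q n : ℕ) (hq : 2 ≤ q) (hn : 5 ≤ n) :
    (q ^ n - 1) + ∑ c ∈ (Nat.gcd n (q - 1)).divisors.filter (fun c => 2 ≤ c),
      (c ^ 2 - 1) * (q ^ (n / c) - 1) ≤ (q - 1) * (q ^ (n - 1) + 3 * q ^ (n - 2)) := by
  have hDmem : ∀ c ∈ (Nat.gcd n (q - 1)).divisors.filter (fun c => 2 ≤ c),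
      2 ≤ c ∧ c ∣ n ∧ c ≤ q - 1 := by
    intro c hc
    rw [Finset.mem_filter, Nat.mem_divisors] at hc
    refine ⟨hc.2, hc.1.1.trans (Nat.gcd_dvd_left _ _), ?_⟩
    exact Nat.le_of_dvd (by omega) (hc.1.1.trans (Nat.gcd_dvd_right _ _))
  generalize (Nat.gcd n (q - 1)).divisors.filter (fun c => 2 ≤ c) = D at hDmem ⊢
  rcases Nat.lt_or_ge q 3 with hq3 | hq3
  · have hq2 : q = 2 := by omega
    have hDe : D = ∅ := by
      apply Finset.eq_empty_of_forall_notMem
      intro c hc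
      have := hDmem c hc
      omega
    rw [hDe, Finset.sum_empty]
    subst hq2
    obtain ⟨k, rfl⟩ : ∃ k, n = k + 2 := ⟨n - 2, by omega⟩
    have e1 : k + 2 - 1 = k + 1 := by omega
    have e2 : k + 2 - 2 = k := by omega
    have e3 : (2 : ℕ) ^ (k + 2) = 4 * 2 ^ k := by ring
    have e4 : (2 : ℕ) ^ (k + 1) = 2 * 2 ^ k := by ring
    rw [e1, e2, e3, e4]
    omega
  · obtain ⟨s, rfl⟩ : ∃ s, q = s + 3 := ⟨q - 3, by omega⟩
    obtain ⟨k, rfl⟩ : ∃ k, n = k + 5 := ⟨n - 5, by omega⟩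
    have hS : ∑ c ∈ D, (c ^ 2 - 1) * ((s + 3) ^ ((k + 5) / c) - 1) ≤
        3 * (s + 3) ^ (k + 2) + s * (((s + 2) ^ 2 - 1) * (s + 3) ^ (k + 1)) := by
      rw [← Finset.sum_filter_add_sum_filter_not D (fun c => c = 2)]
      apply add_le_add
      · calc ∑ c ∈ D.filter (fun c => c = 2), (c ^ 2 - 1) * ((s + 3) ^ ((k + 5) / c) - 1)
            ≤ ∑ c ∈ ({2} : Finset ℕ), (c ^ 2 - 1) * ((s + 3) ^ ((k + 5) / c) - 1) := by
              apply Finset.sum_le_sum_of_subset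
              intro c hc
              rw [Finset.mem_filter] at hc
              rw [Finset.mem_singleton]
              exact hc.2
          _ ≤ 3 * (s + 3) ^ (k + 2) := by
              rw [Finset.sum_singleton]
              have h1 : (s + 3) ^ ((k + 5) / 2) ≤ (s + 3) ^ (k + 2) :=
                Nat.pow_le_pow_right (by omega) (by omega)
              have h2 : (2 ^ 2 - 1 : ℕ) = 3 := by norm_num
              rw [h2]
              exact Nat.mul_le_mul_left 3 ((Nat.sub_le _ _).trans h1)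
      · have hcard : (D.filter (fun c => ¬ c = 2)).card ≤ s := by
          have hsub : D.filter (fun c => ¬ c = 2) ⊆ Finset.Icc 3 (s + 2) := by
            intro c hc
            rw [Finset.mem_filter] at hc
            have := hDmem c hc.1
            rw [Finset.mem_Icc]
            omega
          have := Finset.card_le_card hsub
          rw [Nat.card_Icc] at this
          omega
        have hterm : ∀ c ∈ D.filter (fun c => ¬ c = 2),
            (c ^ 2 - 1) * ((s + 3) ^ ((k + 5) / c) - 1) ≤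
              ((s + 2) ^ 2 - 1) * (s + 3) ^ (k + 1) := by
          intro c hc
          rw [Finset.mem_filter] at hc
          obtain ⟨h2c, hcn, hcq⟩ := hDmem c hc.1
          have hc3 : 3 ≤ c := by omega
          have hcq' : c ≤ s + 2 := by omega
          have h1 : c ^ 2 - 1 ≤ (s + 2) ^ 2 - 1 :=
            Nat.sub_le_sub_right (Nat.pow_le_pow_left hcq' 2) 1
          have h2 : (k + 5) / c ≤ k + 1 := by
            have := Nat.div_le_div_left (a := k + 5) hc3 (by norm_num : 0 < 3)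
            omega
          have h3 : (s + 3) ^ ((k + 5) / c) - 1 ≤ (s + 3) ^ (k + 1) :=
            (Nat.sub_le _ _).trans (Nat.pow_le_pow_right (by omega) h2)
          exact Nat.mul_le_mul h1 h3
        calc ∑ c ∈ D.filter (fun c => ¬ c = 2), (c ^ 2 - 1) * ((s + 3) ^ ((k + 5) / c) - 1)
            ≤ (D.filter (fun c => ¬ c = 2)).card • (((s + 2) ^ 2 - 1) * (s + 3) ^ (k + 1)) :=
              Finset.sum_le_card_nsmul _ _ _ hterm
          _ ≤ s * (((s + 2) ^ 2 - 1) * (s + 3) ^ (k + 1)) := by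
              rw [smul_eq_mul]
              exact Nat.mul_le_mul_right _ hcard
    have eA5 : (s + 3) ^ (k + 5) =
        (s ^ 4 + 12 * s ^ 3 + 54 * s ^ 2 + 108 * s + 81) * (s + 3) ^ (k + 1) := by ring
    have eR : (s + 3 - 1) * ((s + 3) ^ (k + 5 - 1) + 3 * (s + 3) ^ (k + 5 - 2)) =
        (s ^ 4 + 12 * s ^ 3 + 54 * s ^ 2 + 108 * s + 81) * (s + 3) ^ (k + 1) +
          (s ^ 3 + 4 * s ^ 2 + 6 * s + 9) * (s + 3) ^ (k + 1) +
          (s ^ 3 + 11 * s ^ 2 + 30 * s + 18) * (s + 3) ^ (k + 1) := by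
      have e1 : s + 3 - 1 = s + 2 := by omega
      have e2 : k + 5 - 1 = k + 4 := by omega
      have e3 : k + 5 - 2 = k + 3 := by omega
      rw [e1, e2, e3]
      ring
    have eS : 3 * (s + 3) ^ (k + 2) + s * (((s + 2) ^ 2 - 1) * (s + 3) ^ (k + 1)) =
        (s ^ 3 + 4 * s ^ 2 + 6 * s + 9) * (s + 3) ^ (k + 1) := by
      have e4 : (s + 2) ^ 2 - 1 = s ^ 2 + 4 * s + 3 := by
        have : (s + 2) ^ 2 = s ^ 2 + 4 * s + 4 := by ring
        omega
      rw [e4]
      ring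
    rw [eS] at hS
    rw [eR, eA5]
    exact (Nat.add_le_add (Nat.sub_le _ _) hS).trans (Nat.le_add_right _ _)

/-- PIECE B14a -/
theorem numeric_ge_four (q n : ℕ) (hq : 2 ≤ q) (hn : 4 ≤ n) :
    (q ^ n - 1) + ∑ c ∈ (Nat.gcd n (q - 1)).divisors.filter (fun c => 2 ≤ c),
      (c ^ 2 - 1) * (q ^ (n / c) - 1) ≤ (q - 1) * (q ^ (n - 1) + 3 * q ^ (n - 2)) := by
  rcases Nat.lt_or_ge n 5 with h5 | h5
  · have h4 : n = 4 := by omega
    subst h4
    exact kslB14a_four q hq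
  · exact kslB14a_five q n hq h5

end Cfsg.Agent.Helper92
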