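import Mathlib
import Cfsg.Agent.Helper40.KGLDefs
import Cfsg.Agent.Helper40.KSLDefs

set_option autoImplicit false

namespace Cfsg.Agent.Helper92

open Polynomial Cfsg.Agent.Helper40.KGL Cfsg.Agent.Helper40.KSL
open scoped DirectSum
open Classical

universe u v

/-- PIECE B8c -/
theorem nu_mul {F : Type u} [Field F] (f g : F[X]) (hf : f.Monic) (hg : g.Monic) :
    nu (f * g) = nu f * nu g := by
  unfold nu
  rw [hf.natDegree_mul hg, Polynomial.mul_coeff_zero, pow_add]
  ring

theorem nu_one {F : Type u} [Field F] : nu (1 : F[X]) = 1 := by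
  unfold nu
  simp

theorem nu_pow {F : Type u} [Field F] (f : F[X]) (hf : f.Monic) (e : ℕ) :
    nu (f ^ e) = nu f ^ e := by
  induction e with
  | zero => simpa using nu_one (F := F)
  | succ k ih => rw [pow_succ, nu_mul _ _ (hf.pow k) hf, ih, pow_succ]

end Cfsg.Agent.Helper92
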