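import Cfsg.Agent.Helper92.Co3Elts
import Cfsg.Agent.Helper7.OctStab

/-!
# The involution of `Co2` with centraliser `2^{1+8}.Sp(6,2)`: definitions

`OO` is the octad `{∞, 0, 1, 2, 6, 7, 19, 21}` (a union of two tetrads of the sextet of `xi`);
`t0` is the sign change on its complement.  `KS` is the set of monomial automorphisms
`signAut c * permAut σ` with `c` disjoint from `OO` and `σ` fixing `OO` pointwise: the pointwise
stabiliser of the sublattice of the vectors supported on `OO`, of shape `2^{1+8}`.
-/

set_option autoImplicit false

namespace Cfsg.Agent.Helper92.Co2Inv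

open Cfsg Cfsg.Agent.Helper92.Co3Out
open Cfsg.Agent.Helper7 (inCode setOf wt)

/-- mask of the octad `{∞, 0, 1, 2, 6, 7, 19, 21}` (bit `23` is `∞`) -/
def oM : ℕ := 0xa800c7

/-- mask of the complement of the octad -/
def ocM : ℕ := 0x57ff38

theorem oM_ok : inCode oM = true := by decide +kernel

theorem ocM_ok : inCode ocM = true := by decide +kernel

/-- the octad -/
def OO : Finset GolayPt := setOf oM

theorem OO_mem : OO ∈ octads := by
  have := Cfsg.Agent.Helper7.setOf_mem_wordsOfWeight oM_ok
  have h8 : wt oM = 8 := by decide +kernel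
  rw [h8] at this
  exact this

/-- the involution: the sign change on the complement of the octad -/
noncomputable def t0 : Co0 := sc ocM ocM_ok

/-- the monomial automorphisms fixing every vector supported on the octad -/
def KS : Set Co0 :=
  {g | ∃ (c : Finset GolayPt) (hc : c ∈ supports (golayCode : Set (GolayPt → ZMod 2)))
      (σ : Equiv.Perm GolayPt) (hσ : σ ∈ M24),
      Disjoint c OO ∧ (∀ i ∈ OO, σ i = i) ∧ g = signAut c hc * permAut σ hσ}

end Cfsg.Agent.Helper92.Co2Inv
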