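import Cfsg.Agent.Helper92.Co2InvLat
import Cfsg.Agent.Helper92.LeechStabU
import Cfsg.Agent.Helper92.LeechCong
import Cfsg.Agent.Helper7.OctStab

/-!
# The involution of `Co2` with centraliser `2^{1+8}.Sp(6,2)`: the kernel

For `g` in the centraliser `CC` of `t0` in the stabiliser of `leechU`, the matrix `mat g` on the
symplectic space is trivial exactly when `g` lies in the set `KS` of monomial automorphisms
fixing every vector supported on the octad.
-/

set_option autoImplicit false
open scoped Pointwise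

namespace Cfsg.Agent.Helper92.Co2Inv

open Cfsg MulAction Cfsg.Agent.Helper92.Mat Cfsg.Agent.Helper92.Co3Out
open Cfsg.Agent.Helper7 (inCode setOf idx pt)

/-! ### Monomial automorphisms in coordinates -/

theorem mono_apply (c : Finset GolayPt) (hc : c ∈ supports (golayCode : Set (GolayPt → ZMod 2)))
    (σ : Equiv.Perm GolayPt) (hσ : σ ∈ M24) (x : leechLattice) (p : GolayPt) :
    (((signAut c hc * permAut σ hσ) • x : leechLattice) : GolayPt → ℤ) p =
      if p ∈ c then -(x : GolayPt → ℤ) (σ.symm p) else (x : GolayPt → ℤ) (σ.symm p) := rfl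

theorem t0_apply (x : leechLattice) (p : GolayPt) :
    ((t0 • x : leechLattice) : GolayPt → ℤ) p =
      if p ∈ setOf ocM then -(x : GolayPt → ℤ) p else (x : GolayPt → ℤ) p := rfl

/-- the elements of `KS` fix the vectors supported on the octad -/
theorem KS_smul {g : Co0} (hg : g ∈ KS) {x : leechLattice} (hx : Supp x) : g • x = x := by
  obtain ⟨c, hc, σ, hσ, hd, hfix, rfl⟩ := hg
  apply Subtype.ext
  funext p
  rw [mono_apply]
  by_cases hp : p ∈ OO
  · have h1 : σ.symm p = p := by
      rw [Equiv.symm_apply_eq]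
      exact (hfix p hp).symm
    have h2 : p ∉ c := fun h => (Finset.disjoint_left.1 hd h) hp
    rw [if_neg h2, h1]
  · have h1 : σ.symm p ∉ OO := by
      intro h
      have h3 := hfix _ h
      rw [Equiv.apply_symm_apply] at h3
      rw [← h3] at h
      exact hp h
    rw [hx p hp, hx _ h1]
    simp

theorem KS_mem_CC {g : Co0} (hg : g ∈ KS) : g ∈ CC := by
  rw [mem_CC]
  refine ⟨?_, ?_⟩
  · have h6 := supp_fV 6
    rw [fV_six] at h6
    exact KS_smul hg h6
  · obtain ⟨c, hc, σ, hσ, hd, hfix, rfl⟩ := hg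
    apply co0_ext
    intro v
    apply Subtype.ext
    funext p
    rw [mul_smul (signAut c hc * permAut σ hσ) t0 v, mul_smul t0 (signAut c hc * permAut σ hσ) v,
      mono_apply, t0_apply, t0_apply, mono_apply]
    have hiff : σ.symm p ∈ setOf ocM ↔ p ∈ setOf ocM := by
      rw [mem_ocM, mem_ocM, not_iff_not]
      constructor
      · intro h
        have h3 := hfix _ h
        rw [Equiv.apply_symm_apply] at h3
        rw [← h3] at h
        exact h
      · intro h
        have h1 : σ.symm p = p := by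
          rw [Equiv.symm_apply_eq]
          exact (hfix p h).symm
        rw [h1]
        exact h
    by_cases h1 : p ∈ setOf ocM <;> by_cases h2 : p ∈ c <;> simp [h1, h2, hiff]

/-! ### Congruences for elements acting trivially on the symplectic space -/

theorem ker_congr {g : Co0} (hg : g ∈ CC) (h1 : mat g = 1) (y : leechLattice) (hy : Supp y)
    (hU : dotInt (y : GolayPt → ℤ) (Spor.leechU : GolayPt → ℤ) = 0) :
    ∃ (z : leechLattice) (c : ℤ), (3 : ℤ) • (g • y - y) = (2 : ℤ) • z + c • Spor.leechU := by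
  have hgy := supp_smul hg hy
  have hgU : dotInt ((g • y : leechLattice) : GolayPt → ℤ) (Spor.leechU : GolayPt → ℤ) = 0 := by
    rw [dotU_smul hg, hU]
  have hc := cvec_smul hg y hy hU
  rw [h1, Matrix.one_mulVec] at hc
  have par : ∀ i : Fin 3 ⊕ Fin 3, ∃ m : ℤ, cf (ix i) (g • y) = cf (ix i) y + 2 * m := by
    intro i
    have h2 : ((cf (ix i) (g • y) : ℤ) : ZMod 2) = ((cf (ix i) y : ℤ) : ZMod 2) := congrFun hc i
    have h3 := (ZMod.intCast_eq_intCast_iff_dvd_sub _ _ 2).1 h2
    obtain ⟨m, hm⟩ := h3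
    push_cast at hm
    exact ⟨-m, by linarith⟩
  obtain ⟨m0, e0⟩ := par (Sum.inl 0)
  obtain ⟨m1, e1⟩ := par (Sum.inl 1)
  obtain ⟨m2, e2⟩ := par (Sum.inl 2)
  obtain ⟨m3, e3⟩ := par (Sum.inr 0)
  obtain ⟨m4, e4⟩ := par (Sum.inr 1)
  obtain ⟨m5, e5⟩ := par (Sum.inr 2)
  change cf 0 (g • y) = cf 0 y + 2 * m0 at e0
  change cf 1 (g • y) = cf 1 y + 2 * m1 at e1
  change cf 2 (g • y) = cf 2 y + 2 * m2 at e2
  change cf 3 (g • y) = cf 3 y + 2 * m3 at e3
  change cf 4 (g • y) = cf 4 y + 2 * m4 at e4
  change cf 5 (g • y) = cf 5 y + 2 * m5 at e5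
  have c1 := complete (g • y) hgy
  have c2 := complete y hy
  rw [Fin.sum_univ_eight] at c1 c2
  have e7 := cf7_even (g • y) hgy hgU
  have e7' := cf7_even y hy hU
  rw [e0, e1, e2, e3, e4, e5, e7] at c1
  rw [e7'] at c2
  refine ⟨m0 • fV 0 + m1 • fV 1 + m2 • fV 2 + m3 • fV 3 + m4 • fV 4 + m5 • fV 5 +
    (cf 6 y - cf 6 (g • y)) • fV 7, cf 6 (g • y) - cf 6 y, ?_⟩
  rw [smul_sub, c1, c2, ← fV_six]
  module

/-- a supported root orthogonal to `leechU` is fixed or negated -/
theorem ker_root {g : Co0} (hg : g ∈ CC) (h1 : mat g = 1) (y : leechLattice) (hy : Supp y)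
    (hU : dotInt (y : GolayPt → ℤ) (Spor.leechU : GolayPt → ℤ) = 0)
    (hn : sqNorm (y : GolayPt → ℤ) = 32) : g • y = y ∨ g • y = -y := by
  obtain ⟨z, c, h⟩ := ker_congr hg h1 y hy hU
  have hgn : sqNorm ((g • y : leechLattice) : GolayPt → ℤ) = 32 := by rw [co0_sqNorm, hn]
  have hgU : dotInt ((g • y : leechLattice) : GolayPt → ℤ) (Spor.leechU : GolayPt → ℤ) = 0 := by
    rw [dotU_smul hg, hU]
  generalize hd0 : g • y - y = d at h
  have hd : d = (2 : ℤ) • (z - d) + c • Spor.leechU := by
    calc d = (3 : ℤ) • d - (2 : ℤ) • d := by module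
      _ = ((2 : ℤ) • z + c • Spor.leechU) - (2 : ℤ) • d := by rw [h]
      _ = (2 : ℤ) • (z - d) + c • Spor.leechU := by module
  rcases Int.even_or_odd' c with ⟨m, rfl | rfl⟩
  · have hd2 : g • y - y = (2 : ℤ) • (z - d + m • Spor.leechU) := by
      rw [hd0]
      calc d = (2 : ℤ) • (z - d) + (2 * m) • Spor.leechU := hd
        _ = (2 : ℤ) • (z - d + m • Spor.leechU) := by module
    have hd3 : ((g • y : leechLattice) : GolayPt → ℤ) - (y : GolayPt → ℤ) =
        (2 : ℤ) • ((z - d + m • Spor.leechU : leechLattice) : GolayPt → ℤ) :=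
      congrArg Subtype.val hd2
    rcases leech_congr_two y.2 (z - d + m • Spor.leechU).2 hd3 (by rw [hgn]; norm_num)
      (by rw [hn]; norm_num) with h | h | ⟨h, -, -⟩
    · left
      exact Subtype.ext h.symm
    · right
      apply Subtype.ext
      show ((g • y : leechLattice) : GolayPt → ℤ) = -(y : GolayPt → ℤ)
      rw [h, neg_neg]
    · rw [hgn] at h
      norm_num at h
  · have hd2 : (g • y - Spor.leechU) - y = (2 : ℤ) • (z - d + m • Spor.leechU) := by
      calc (g • y - Spor.leechU) - y = (g • y - y) - Spor.leechU := by abel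
        _ = d - Spor.leechU := by rw [hd0]
        _ = ((2 : ℤ) • (z - d) + (2 * m + 1) • Spor.leechU) - Spor.leechU := by rw [← hd]
        _ = (2 : ℤ) • (z - d + m • Spor.leechU) := by module
    have hvn : sqNorm ((g • y - Spor.leechU : leechLattice) : GolayPt → ℤ) = 64 := by
      show sqNorm (((g • y : leechLattice) : GolayPt → ℤ) - (Spor.leechU : GolayPt → ℤ)) = 64
      rw [sqNorm_sub, hgn, sqNorm_leechU, hgU]
      norm_num
    have hd3 : ((g • y - Spor.leechU : leechLattice) : GolayPt → ℤ) - (y : GolayPt → ℤ) =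
        (2 : ℤ) • ((z - d + m • Spor.leechU : leechLattice) : GolayPt → ℤ) :=
      congrArg Subtype.val hd2
    rcases leech_congr_two y.2 (z - d + m • Spor.leechU).2 hd3 hvn.le
      (by rw [hn]; norm_num) with h | h | ⟨-, h, -⟩
    · have h' := congrArg sqNorm h
      rw [hn, hvn] at h'
      norm_num at h'
    · have h' := congrArg sqNorm h
      rw [sqNorm_neg, hn, hvn] at h'
      norm_num at h'
    · rw [hn] at h
      norm_num at h

/-! ### The standard cross is stabilised -/

/-- the root `4e_∞ - 4e_0` -/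
def rD : leechLattice := P none (some 0) - P (some 0) (some 0)

theorem supp_rD : Supp rD := by
  unfold Supp
  decide +kernel

theorem dot_rD : dotInt (rD : GolayPt → ℤ) (Spor.leechU : GolayPt → ℤ) = 0 := by decide +kernel

theorem norm_rD : sqNorm (rD : GolayPt → ℤ) = 32 := sqNorm_Pm_of_ne (by decide)

theorem gP_none {g : Co0} (hg : g ∈ CC) (h1 : mat g = 1) :
    ((g • P none none : leechLattice) : GolayPt → ℤ) ∈ stdCross := by
  have h3 := P_rel_diag none (some 0)
  have e : P none none = Spor.leechU + rD := by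
    rw [leechU_eq, rD]
    calc P none none = (P none none + P (some 0) (some 0)) - P (some 0) (some 0) := by abel
      _ = (P none (some 0) + P none (some 0)) - P (some 0) (some 0) := by rw [h3]
      _ = P none (some 0) + (P none (some 0) - P (some 0) (some 0)) := by abel
  have e2 : Spor.leechU + -rD = P (some 0) (some 0) := by
    rw [leechU_eq, rD]
    abel
  rw [e, co0_add, (mem_CC.1 hg).1]
  rcases ker_root hg h1 rD supp_rD dot_rD norm_rD with h | h
  · rw [h, ← e]
    exact P_diag_mem none
  · rw [h, e2]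
    exact P_diag_mem _

theorem gP_all {g : Co0} (hg : g ∈ CC) (h1 : mat g = 1) (i : GolayPt) :
    ((g • P i i : leechLattice) : GolayPt → ℤ) ∈ stdCross := by
  obtain ⟨j, s, hs, hj⟩ := gP_none hg h1
  have h3 := P_rel_diag none i
  have e : P none none - P i i = (2 : ℤ) • (P none none - P none i) := by
    calc P none none - P i i = (P none none + P none none) - (P none none + P i i) := by abel
      _ = (P none none + P none none) - (P none i + P none i) := by rw [h3]
      _ = (2 : ℤ) • (P none none - P none i) := by module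
  have e2 : g • P none none - g • P i i = (2 : ℤ) • (g • (P none none - P none i)) := by
    rw [← co0_sub, e, co0_zsmul]
  have e3 : (Pi.single j s : GolayPt → ℤ) - ((g • P i i : leechLattice) : GolayPt → ℤ) =
      (2 : ℤ) • ((g • (P none none - P none i) : leechLattice) : GolayPt → ℤ) := by
    rw [← hj]
    exact congrArg Subtype.val e2
  exact mem_stdCross_of_cong (g • P i i).2 (g • (P none none - P none i)).2 j s hs
    (by rw [co0_sqNorm, sqNorm_F]) e3

theorem ker_stabCross {g : Co0} (hg : g ∈ CC) (h1 : mat g = 1) : StabCross g := by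
  rintro v ⟨i, s, hs, hv⟩
  rcases hs with rfl | rfl
  · have : v = P i i := Subtype.ext (hv.trans (P_diag_val i).symm)
    rw [this]
    exact gP_all hg h1 i
  · have : v = -P i i := by
      apply Subtype.ext
      rw [hv, Pi.single_neg]
      show _ = -((P i i : leechLattice) : GolayPt → ℤ)
      rw [P_diag_val]
    rw [this, co0_neg]
    exact neg_mem_stdCross (gP_all hg h1 i)

/-! ### The monomial form -/

theorem mono_supp (c : Finset GolayPt) (hc : c ∈ supports (golayCode : Set (GolayPt → ZMod 2)))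
    (σ : Equiv.Perm GolayPt) (hσ : σ ∈ M24) (y : leechLattice)
    (h : (signAut c hc * permAut σ hσ) • y = y ∨ (signAut c hc * permAut σ hσ) • y = -y)
    (i : GolayPt) (hi : (y : GolayPt → ℤ) i ≠ 0) : (y : GolayPt → ℤ) (σ i) ≠ 0 := by
  have e := mono_apply c hc σ hσ y (σ i)
  rw [Equiv.symm_apply_apply] at e
  intro h0
  rcases h with h | h
  · rw [h, h0] at e
    split_ifs at e <;> omega
  · have e' : ((-y : leechLattice) : GolayPt → ℤ) (σ i) = -(y : GolayPt → ℤ) (σ i) := rfl
    rw [h, e', h0] at e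
    split_ifs at e <;> omega

theorem leechU_apply (p : GolayPt) : (Spor.leechU : GolayPt → ℤ) p =
    (if p = none then 4 else 0) + (if p = some 0 then 4 else 0) := by
  rw [leechU_eq, P_apply]

theorem dot_P (a b : GolayPt) (y : GolayPt → ℤ) :
    dotInt ((P a b : leechLattice) : GolayPt → ℤ) y = 4 * y a + 4 * y b := by
  show dotInt (e4 a + e4 b) y = _
  rw [dotInt_add_left]
  unfold e4
  rw [dotInt_single_left, dotInt_single_left]

theorem supp_P {i j : GolayPt} (hi : i ∈ OO) (hj : j ∈ OO) : Supp (P i j) := by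
  intro p hp
  have h1 : p ≠ i := fun h => hp (h ▸ hi)
  have h2 : p ≠ j := fun h => hp (h ▸ hj)
  rw [P_apply, if_neg h1, if_neg h2]
  rfl

theorem dot_P_U {i j : GolayPt} (hi1 : i ≠ none) (hi0 : i ≠ some 0) (hj1 : j ≠ none)
    (hj0 : j ≠ some 0) :
    dotInt ((P i j : leechLattice) : GolayPt → ℤ) (Spor.leechU : GolayPt → ℤ) = 0 := by
  rw [dot_P, leechU_apply, leechU_apply, if_neg hi1, if_neg hi0, if_neg hj1, if_neg hj0]
  rfl

theorem norm_fV5 : sqNorm (fV 5 : GolayPt → ℤ) = 32 := by
  show sqNorm (vecL (fL 5)) = 32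
  rw [← dotInt_self, dotInt_vecL]
  decide +kernel

theorem fV5_none : (fV 5 : GolayPt → ℤ) none = -2 := by decide +kernel

theorem fV5_ne : ∀ i ∈ OO, (fV 5 : GolayPt → ℤ) i ≠ 0 := by decide +kernel

/-- for every point of the octad other than `∞`, `0` there are two further such points -/
theorem OO_three : ∀ i : GolayPt, i ∈ OO → i ≠ none → i ≠ some 0 →
    ∃ j k : GolayPt, j ∈ OO ∧ k ∈ OO ∧ j ≠ none ∧ j ≠ some 0 ∧ k ≠ none ∧ k ≠ some 0 ∧
      j ≠ i ∧ k ≠ i ∧ j ≠ k := by decide +kernel

/-- no element of `M24` fixes six points of the octad and interchanges the other two -/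
theorem no_swap {σ : Equiv.Perm GolayPt} (hσ : σ ∈ M24)
    (hfix : ∀ i ∈ OO, i ≠ none → i ≠ some 0 → σ i = i) (hn : σ none = some 0)
    (h0 : σ (some 0) = none) : False := by
  have hnO : (none : GolayPt) ∈ OO := by decide +kernel
  have h0O : (some 0 : GolayPt) ∈ OO := by decide +kernel
  have hst : σ ∈ MulAction.stabilizer (Equiv.Perm GolayPt) OO := by
    rw [MulAction.mem_stabilizer_finset']
    intro b hb
    show σ b ∈ OO
    by_cases hb1 : b = none
    · rw [hb1, hn]
      exact h0O
    by_cases hb0 : b = some 0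
    · rw [hb0, h0]
      exact hnO
    rw [hfix b hb hb1 hb0]
    exact hb
  have hmem : (Cfsg.Agent.Helper7.resSub M24 OO ⟨σ, ⟨hσ, hst⟩⟩) ∈
      (Cfsg.Agent.Helper7.resSub M24 OO).range := ⟨_, rfl⟩
  rw [Cfsg.Agent.Helper7.range_resM24 OO_mem, Equiv.Perm.mem_alternatingGroup] at hmem
  have hsw : Cfsg.Agent.Helper7.resSub M24 OO ⟨σ, ⟨hσ, hst⟩⟩ =
      Equiv.swap (⟨none, hnO⟩ : ↥OO) ⟨some 0, h0O⟩ := by
    apply Equiv.ext
    intro x
    apply Subtype.ext
    rw [Cfsg.Agent.Helper7.resSub_apply]
    show σ x.1 = _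
    rw [Equiv.swap_apply_def]
    by_cases hb1 : x = ⟨none, hnO⟩
    · rw [if_pos hb1, hb1]
      exact hn
    by_cases hb0 : x = ⟨some 0, h0O⟩
    · rw [if_neg hb1, if_pos hb0, hb0]
      exact h0
    · rw [if_neg hb1, if_neg hb0]
      exact hfix x.1 x.2 (fun h => hb1 (Subtype.ext h)) (fun h => hb0 (Subtype.ext h))
  have hne : (⟨none, hnO⟩ : ↥OO) ≠ ⟨some 0, h0O⟩ := by
    intro h
    have h' : (none : GolayPt) = some 0 := congrArg Subtype.val h
    exact absurd h' (by decide)
  rw [hsw, Equiv.Perm.sign_swap hne] at hmem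
  exact absurd hmem (by decide)

/-- **The kernel**: an element of `CC` acting trivially on the symplectic space is in `KS`. -/
theorem ker_sub {g : Co0} (hg : g ∈ CC) (h1 : mat g = 1) : g ∈ KS := by
  obtain ⟨c, hc, σ, hσ, rfl⟩ := stabCross_eq (ker_stabCross hg h1)
  have hU := (mem_CC.1 hg).1
  have key : ∀ i : GolayPt, (i = none ∨ i = some 0) → (σ i = none ∨ σ i = some 0) ∧ σ i ∉ c := by
    intro i hi
    have e := mono_apply c hc σ hσ Spor.leechU (σ i)
    rw [hU, Equiv.symm_apply_apply, leechU_apply, leechU_apply i] at e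
    have hi4 : (if i = none then (4 : ℤ) else 0) + (if i = some 0 then 4 else 0) = 4 := by
      rcases hi with rfl | rfl <;> simp
    rw [hi4] at e
    constructor
    · by_contra hne
      push Not at hne
      rw [if_neg hne.1, if_neg hne.2] at e
      split_ifs at e <;> omega
    · intro hmem
      rw [if_pos hmem] at e
      split_ifs at e <;> omega
  have hfixO : ∀ i ∈ OO, i ≠ none → i ≠ some 0 → σ i = i := by
    intro i hi hi1 hi0
    obtain ⟨j, k, hj, hk, hj1, hj0, hk1, hk0, hji, hki, hjk⟩ := OO_three i hi hi1 hi0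
    have hr : ∀ j : GolayPt, j ∈ OO → j ≠ none → j ≠ some 0 → j ≠ i → σ i = i ∨ σ i = j := by
      intro j hj hj1 hj0 hji
      have hroot := ker_root hg h1 (P i j) (supp_P hi hj) (dot_P_U hi1 hi0 hj1 hj0)
        (sqNorm_P_of_ne (Ne.symm hji))
      have h4 := mono_supp c hc σ hσ (P i j) hroot i (by
        rw [P_apply, if_pos rfl, if_neg (Ne.symm hji)]
        norm_num)
      rw [P_apply] at h4
      by_contra hne
      push Not at hne
      rw [if_neg hne.1, if_neg hne.2] at h4
      exact h4 rfl
    rcases hr j hj hj1 hj0 hji with h | h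
    · exact h
    · rcases hr k hk hk1 hk0 hki with h' | h'
      · exact h'
      · exact absurd (h.symm.trans h') hjk
  rcases (key none (Or.inl rfl)).1 with hn | hn
  · have h0 : σ (some 0) = some 0 := by
      rcases (key (some 0) (Or.inr rfl)).1 with h | h
      · exact absurd (σ.injective (h.trans hn.symm)) (by decide)
      · exact h
    have hfix : ∀ i ∈ OO, σ i = i := by
      intro i hi
      by_cases hi1 : i = none
      · rw [hi1]
        exact hn
      by_cases hi0 : i = some 0
      · rw [hi0]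
        exact h0
      exact hfixO i hi hi1 hi0
    have hnc : none ∉ c := by
      have h2 := (key none (Or.inl rfl)).2
      rwa [hn] at h2
    have h5 := ker_root hg h1 (fV 5) (supp_fV 5) (dot_fV_U (Sum.inr 2)) norm_fV5
    have h5' : (signAut c hc * permAut σ hσ) • fV 5 = fV 5 := by
      rcases h5 with h | h
      · exact h
      · exfalso
        have e := mono_apply c hc σ hσ (fV 5) none
        have hs : σ.symm none = none := by
          rw [Equiv.symm_apply_eq]
          exact hn.symm
        have e' : ((-fV 5 : leechLattice) : GolayPt → ℤ) none = -(fV 5 : GolayPt → ℤ) none := rfl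
        rw [h, if_neg hnc, hs, e', fV5_none] at e
        omega
    refine ⟨c, hc, σ, hσ, ?_, hfix, rfl⟩
    rw [Finset.disjoint_left]
    intro i hic hi
    have e := mono_apply c hc σ hσ (fV 5) i
    have hs : σ.symm i = i := by
      rw [Equiv.symm_apply_eq]
      exact (hfix i hi).symm
    rw [h5', if_pos hic, hs] at e
    have h6 := fV5_ne i hi
    omega
  · exfalso
    have h0 : σ (some 0) = none := by
      rcases (key (some 0) (Or.inr rfl)).1 with h | h
      · exact h
      · exact absurd (σ.injective (h.trans hn.symm)) (by decide)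
    exact no_swap hσ hfixO hn h0

theorem rho_of_KS (g : ↥CC) (hg : g.1 ∈ KS) : rhoCC g = 1 := by
  apply Subtype.ext
  rw [rhoCC_coe]
  show mat g.1 = 1
  rw [← mat_one]
  ext i j
  show cvec (g.1 • fV (ix j)) i = cvec ((1 : Co0) • fV (ix j)) i
  rw [KS_smul hg (supp_fV _), one_smul]

/-- **The kernel of the action on the symplectic space is `KS`.** -/
theorem ker_iff (g : ↥CC) : rhoCC g = 1 ↔ g.1 ∈ KS := by
  constructor
  · intro h
    have h1 : mat g.1 = 1 := by
      rw [← rhoCC_coe, h]
      rfl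
    exact ker_sub g.2 h1
  · exact rho_of_KS g

end Cfsg.Agent.Helper92.Co2Inv
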