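import Cfsg.Agent.Helper92.Co2InvKer

/-!
# The centraliser of the sign change on an octad: action on the supported lattice modulo 2

For `g` commuting with `t0` (the sign change on the complement of the octad `OO`), `mat8 g` is the
matrix of `g` on the lattice of the vectors supported on `OO` modulo twice itself, in the basis
`fV 0, …, fV 7`.  It is multiplicative, and if it is trivial then `g` is a monomial automorphism
`signAut c * permAut σ` with `σ` fixing `OO` pointwise and `c` disjoint from `OO` or containing it.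
-/

set_option autoImplicit false
open scoped Pointwise

namespace Cfsg.Agent.Helper92.McLInv

open Cfsg MulAction Cfsg.Agent.Helper92.Mat Cfsg.Agent.Helper92.Co3Out Cfsg.Agent.Helper92.Co2Inv
open Cfsg.Agent.Helper7 (inCode setOf idx pt)

theorem supp_smul8 {g : Co0} (hg : g * t0 = t0 * g) {x : leechLattice} (hx : Supp x) :
    Supp (g • x) := by
  rw [supp_iff] at hx ⊢
  rw [← mul_smul, ← hg, mul_smul, hx]

/-- the coordinate vector modulo 2 of a lattice vector -/
def c8 (x : leechLattice) : Fin 8 → ZMod 2 := fun i => ((cf i x : ℤ) : ZMod 2)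

/-- the matrix of an automorphism on the supported lattice modulo 2 -/
def mat8 (g : Co0) : Matrix (Fin 8) (Fin 8) (ZMod 2) := fun i j => c8 (g • fV j) i

theorem c8_smul (g : Co0) (x : leechLattice) (hx : Supp x) :
    c8 (g • x) = (mat8 g).mulVec (c8 x) := by
  funext i
  have e := cf_smul_expand g x hx i
  have e' := congrArg (Int.cast : ℤ → ZMod 2) e
  simp only [Int.cast_mul, Int.cast_sum, three_zmod, one_mul] at e'
  rw [Matrix.mulVec, dotProduct]
  show ((cf i (g • x) : ℤ) : ZMod 2) = _
  rw [e']
  apply Finset.sum_congr rfl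
  intro k _
  exact mul_comm _ _

theorem mat8_one : mat8 1 = 1 := by
  ext i j
  show ((cf i ((1 : Co0) • fV j) : ℤ) : ZMod 2) = _
  rw [one_smul, cf_fV, Matrix.one_apply]
  by_cases h : i = j
  · rw [if_pos h, if_pos h]
    exact three_zmod
  · rw [if_neg h, if_neg h]
    rfl

theorem mat8_mul (g : Co0) {h : Co0} (hh : h * t0 = t0 * h) : mat8 (g * h) = mat8 g * mat8 h := by
  ext i j
  have h1 := c8_smul g (h • fV j) (supp_smul8 hh (supp_fV _))
  have h2 := congrFun h1 i
  rw [← mul_smul] at h2
  rw [Matrix.mul_apply]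
  exact h2

/-! ### Elements acting trivially -/

theorem ker8_congr {g : Co0} (h1 : mat8 g = 1) (y : leechLattice) (hy : Supp y)
    (hgy : Supp (g • y)) : ∃ z : leechLattice, g • y - y = (2 : ℤ) • z := by
  have hc := c8_smul g y hy
  rw [h1, Matrix.one_mulVec] at hc
  have par : ∀ i : Fin 8, ∃ m : ℤ, cf i (g • y) = cf i y + 2 * m := by
    intro i
    have h2 : ((cf i (g • y) : ℤ) : ZMod 2) = ((cf i y : ℤ) : ZMod 2) := congrFun hc i
    have h3 := (ZMod.intCast_eq_intCast_iff_dvd_sub _ _ 2).1 h2
    obtain ⟨m, hm⟩ := h3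
    push_cast at hm
    exact ⟨-m, by linarith⟩
  choose m hm using par
  have c1 := complete (g • y) hgy
  have c2 := complete y hy
  have e3 : (3 : ℤ) • (g • y - y) = (2 : ℤ) • ∑ k : Fin 8, m k • fV k := by
    rw [smul_sub, c1, c2, Finset.smul_sum, ← Finset.sum_sub_distrib]
    apply Finset.sum_congr rfl
    intro k _
    rw [hm k]
    module
  refine ⟨(∑ k : Fin 8, m k • fV k) - (g • y - y), ?_⟩
  generalize g • y - y = d at e3 ⊢
  calc d = (3 : ℤ) • d - (2 : ℤ) • d := by module
    _ = (2 : ℤ) • (∑ k : Fin 8, m k • fV k) - (2 : ℤ) • d := by rw [e3]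
    _ = (2 : ℤ) • ((∑ k : Fin 8, m k • fV k) - d) := by module

/-- a supported root is fixed or negated -/
theorem ker8_root {g : Co0} (hg : g * t0 = t0 * g) (h1 : mat8 g = 1) (y : leechLattice)
    (hy : Supp y) (hn : sqNorm (y : GolayPt → ℤ) = 32) : g • y = y ∨ g • y = -y := by
  obtain ⟨z, h⟩ := ker8_congr h1 y hy (supp_smul8 hg hy)
  have hgn : sqNorm ((g • y : leechLattice) : GolayPt → ℤ) = 32 := by rw [co0_sqNorm, hn]
  have hd3 : ((g • y : leechLattice) : GolayPt → ℤ) - (y : GolayPt → ℤ) =
      (2 : ℤ) • ((z : leechLattice) : GolayPt → ℤ) := congrArg Subtype.val h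
  rcases leech_congr_two y.2 z.2 hd3 (by rw [hgn]; norm_num) (by rw [hn]; norm_num)
    with h | h | ⟨h, -, -⟩
  · left
    exact Subtype.ext h.symm
  · right
    apply Subtype.ext
    show ((g • y : leechLattice) : GolayPt → ℤ) = -(y : GolayPt → ℤ)
    rw [h, neg_neg]
  · rw [hgn] at h
    norm_num at h

theorem supp_leechU : Supp Spor.leechU := by
  have h6 := supp_fV 6
  rwa [fV_six] at h6

theorem gP8_none {g : Co0} (hg : g * t0 = t0 * g) (h1 : mat8 g = 1) :
    ((g • P none none : leechLattice) : GolayPt → ℤ) ∈ stdCross := by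
  have h3 := P_rel_diag none (some 0)
  have e : P none none = Spor.leechU + rD := by
    rw [leechU_eq, rD]
    calc P none none = (P none none + P (some 0) (some 0)) - P (some 0) (some 0) := by abel
      _ = (P none (some 0) + P none (some 0)) - P (some 0) (some 0) := by rw [h3]
      _ = P none (some 0) + (P none (some 0) - P (some 0) (some 0)) := by abel
  have e2 : Spor.leechU + -rD = P (some 0) (some 0) := by
    rw [leechU_eq, rD]
    abel
  have e3 : -Spor.leechU + rD = -P (some 0) (some 0) := by
    rw [← e2]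
    abel
  have e4 : -Spor.leechU + -rD = -P none none := by
    rw [e]
    abel
  rw [e, co0_add]
  rcases ker8_root hg h1 Spor.leechU supp_leechU sqNorm_leechU with hU | hU <;>
    rcases ker8_root hg h1 rD supp_rD norm_rD with h | h
  · rw [hU, h, ← e]
    exact P_diag_mem none
  · rw [hU, h, e2]
    exact P_diag_mem _
  · rw [hU, h, e3]
    exact neg_mem_stdCross (P_diag_mem _)
  · rw [hU, h, e4]
    exact neg_mem_stdCross (P_diag_mem _)

theorem gP8_all {g : Co0} (hg : g * t0 = t0 * g) (h1 : mat8 g = 1) (i : GolayPt) :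
    ((g • P i i : leechLattice) : GolayPt → ℤ) ∈ stdCross := by
  obtain ⟨j, s, hs, hj⟩ := gP8_none hg h1
  have h3 := P_rel_diag none i
  have e : P none none - P i i = (2 : ℤ) • (P none none - P none i) := by
    calc P none none - P i i = (P none none + P none none) - (P none none + P i i) := by abel
      _ = (P none none + P none none) - (P none i + P none i) := by rw [h3]
      _ = (2 : ℤ) • (P none none - P none i) := by module
  have e2 : g • P none none - g • P i i = (2 : ℤ) • (g • (P none none - P none i)) := by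
    rw [← co0_sub, e, co0_zsmul]
  have e3 : (Pi.single j s : GolayPt → ℤ) - ((g • P i i : leechLattice) : GolayPt → ℤ) =
      (2 : ℤ) • ((g • (P none none - P none i) : leechLattice) : GolayPt → ℤ) := by
    rw [← hj]
    exact congrArg Subtype.val e2
  exact mem_stdCross_of_cong (g • P i i).2 (g • (P none none - P none i)).2 j s hs
    (by rw [co0_sqNorm, sqNorm_F]) e3

theorem ker8_stabCross {g : Co0} (hg : g * t0 = t0 * g) (h1 : mat8 g = 1) : StabCross g := by
  rintro v ⟨i, s, hs, hv⟩
  rcases hs with rfl | rfl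
  · have : v = P i i := Subtype.ext (hv.trans (P_diag_val i).symm)
    rw [this]
    exact gP8_all hg h1 i
  · have : v = -P i i := by
      apply Subtype.ext
      rw [hv, Pi.single_neg]
      show _ = -((P i i : leechLattice) : GolayPt → ℤ)
      rw [P_diag_val]
    rw [this, co0_neg]
    exact neg_mem_stdCross (gP8_all hg h1 i)

/-- for every point of the octad there are two further points of the octad -/
theorem OO_three8 : ∀ i : GolayPt, i ∈ OO →
    ∃ j k : GolayPt, j ∈ OO ∧ k ∈ OO ∧ j ≠ i ∧ k ≠ i ∧ j ≠ k := by decide +kernel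

/-- **The kernel**: an element commuting with `t0` and acting trivially on the supported lattice
modulo 2 is monomial, its permutation fixes the octad pointwise and its sign set is disjoint from
the octad or contains it. -/
theorem ker8 {g : Co0} (hg : g * t0 = t0 * g) (h1 : mat8 g = 1) :
    ∃ (c : Finset GolayPt) (hc : c ∈ supports (golayCode : Set (GolayPt → ZMod 2)))
      (σ : Equiv.Perm GolayPt) (hσ : σ ∈ M24),
      (∀ i ∈ OO, σ i = i) ∧ (Disjoint c OO ∨ OO ⊆ c) ∧ g = signAut c hc * permAut σ hσ := by
  obtain ⟨c, hc, σ, hσ, rfl⟩ := stabCross_eq (ker8_stabCross hg h1)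
  have hfix : ∀ i ∈ OO, σ i = i := by
    intro i hi
    obtain ⟨j, k, hj, hk, hji, hki, hjk⟩ := OO_three8 i hi
    have hr : ∀ j : GolayPt, j ∈ OO → j ≠ i → σ i = i ∨ σ i = j := by
      intro j hj hji
      have hroot := ker8_root hg h1 (P i j) (supp_P hi hj) (sqNorm_P_of_ne (Ne.symm hji))
      have h4 := mono_supp c hc σ hσ (P i j) hroot i (by
        rw [P_apply, if_pos rfl, if_neg (Ne.symm hji)]
        norm_num)
      rw [P_apply] at h4
      by_contra hne
      push Not at hne
      rw [if_neg hne.1, if_neg hne.2] at h4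
      exact h4 rfl
    rcases hr j hj hji with h | h
    · exact h
    · rcases hr k hk hki with h' | h'
      · exact h'
      · exact absurd (h.symm.trans h') hjk
  refine ⟨c, hc, σ, hσ, hfix, ?_, rfl⟩
  have hs : ∀ i ∈ OO, σ.symm i = i := by
    intro i hi
    rw [Equiv.symm_apply_eq]
    exact (hfix i hi).symm
  rcases ker8_root hg h1 (fV 5) (supp_fV 5) norm_fV5 with h5 | h5
  · left
    rw [Finset.disjoint_left]
    intro i hic hi
    have e := mono_apply c hc σ hσ (fV 5) i
    rw [h5, if_pos hic, hs i hi] at e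
    have h6 := fV5_ne i hi
    omega
  · right
    intro i hi
    by_contra hic
    have e := mono_apply c hc σ hσ (fV 5) i
    have e' : ((-fV 5 : leechLattice) : GolayPt → ℤ) i = -(fV 5 : GolayPt → ℤ) i := rfl
    rw [h5, if_neg hic, hs i hi, e'] at e
    have h6 := fV5_ne i hi
    omega

end Cfsg.Agent.Helper92.McLInv
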