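import Cfsg.Agent.Helper92.McLInvRep

/-!
# The centraliser of a sign change on an octad in a copy of the McLaughlin group: the kernel

An element of the centraliser `CZ` acting trivially on the invariant 4-space fixes the fifteen
vectors of the orbit of `8 e_a`, hence the sixteen vectors `8 e_i` off the octad; it is then a
sign change on a code word contained in the octad: the identity or `zz`.
-/

set_option autoImplicit false
open scoped Pointwise

namespace Cfsg.Agent.Helper92.McLInv

open Cfsg MulAction Cfsg.Agent.Helper92.Mat Cfsg.Agent.Helper92.Co3Out Cfsg.Agent.Helper92.Co2Inv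
open Cfsg.Agent.Helper7 (inCode setOf idx pt)

theorem gJ_one {g : Co0} (hg : g ∈ CZ) (h1 : r4 g = 1) : mat8 g * Jm = Jm := by
  rw [gJ hg, h1, Matrix.mul_one]

theorem mulVec_cyT {g : Co0} (hg : g ∈ CZ) (h1 : r4 g = 1) (i : Fin 15) :
    (mat8 g).mulVec (cyT i) = cyT i := by
  rw [← JL_cyT i, Matrix.mulVec_mulVec, gJ_one hg h1]

theorem fix_yv {g : Co0} (hg : g ∈ CZ) (h1 : r4 g = 1) (i : Fin 15) :
    g • yvN i.val = yvN i.val := by
  obtain ⟨h, hh, hc⟩ := orb_all i
  obtain ⟨i', hi'⟩ := orbit_yv hh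
  have e1 : cyT i' = cyT i := by rw [← c8_yv i', ← hi', c8_Paa, hc]
  have hii := cyT_inj _ _ e1
  obtain ⟨i'', hi''⟩ := orbit_yv (mul_mem hg hh)
  have e2 : cyT i'' = cyT i := by
    rw [← c8_yv i'', ← hi'', c8_Paa, mul_smul, c8_smul g _ (supp_img hh), hc, mulVec_cyT hg h1]
  have hii' := cyT_inj _ _ e2
  calc g • yvN i.val = g • (h • P aP aP) := by rw [hi', hii]
    _ = (g * h) • P aP aP := (mul_smul _ _ _).symm
    _ = yvN i''.val := hi''
    _ = yvN i.val := by rw [hii']

theorem fix_Paa {g : Co0} (hg : g ∈ CZ) (h1 : r4 g = 1) : g • P aP aP = P aP aP :=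
  fix_yv hg h1 0

theorem fix_Pbb {g : Co0} (hg : g ∈ CZ) (h1 : r4 g = 1) : g • P bP bP = P bP bP := by
  have h3 := P_rel_diag aP bP
  have e : P bP bP = vv + (vv - P aP aP) := by
    rw [vv]
    calc P bP bP = (P aP aP + P bP bP) - P aP aP := by abel
      _ = (P aP bP + P aP bP) - P aP aP := by rw [h3]
      _ = P aP bP + (P aP bP - P aP aP) := by abel
  rw [e, co0_add, co0_sub, (mem_CZ.1 hg).1, fix_Paa hg h1]

theorem fix_pq {g : Co0} (hg : g ∈ CZ) (h1 : r4 g = 1) (k : ℕ) (hk : k < 7) :
    g • P (pp k) (pp k) = P (pp k) (pp k) ∧ g • P (qq k) (qq k) = P (qq k) (qq k) := by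
  have hv := (mem_CZ.1 hg).1
  have a1 := fix_yv hg h1 ⟨k + 1, by omega⟩
  have a2 := fix_yv hg h1 ⟨k + 7 + 1, by omega⟩
  have e1 : yvN (k + 1) = vv + P (pp k) (qq k) := by
    show (if k < 7 then vv + P (pp k) (qq k)
      else vv + (P (pp (k - 7)) (pp (k - 7)) - P (pp (k - 7)) (qq (k - 7)))) = _
    rw [if_pos hk]
  have e2 : yvN (k + 7 + 1) = vv + (P (pp k) (pp k) - P (pp k) (qq k)) := by
    show (if k + 7 < 7 then vv + P (pp (k + 7)) (qq (k + 7))
      else vv + (P (pp (k + 7 - 7)) (pp (k + 7 - 7)) - P (pp (k + 7 - 7)) (qq (k + 7 - 7)))) = _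
    rw [if_neg (by omega), Nat.add_sub_cancel]
  have a1' : g • yvN (k + 1) = yvN (k + 1) := a1
  have a2' : g • yvN (k + 7 + 1) = yvN (k + 7 + 1) := a2
  rw [e1, co0_add, hv, add_right_inj] at a1'
  rw [e2, co0_add, hv, add_right_inj] at a2'
  have h3 := P_rel_diag (pp k) (qq k)
  constructor
  · have e : P (pp k) (pp k) = P (pp k) (qq k) + (P (pp k) (pp k) - P (pp k) (qq k)) := by abel
    calc g • P (pp k) (pp k) = g • (P (pp k) (qq k) + (P (pp k) (pp k) - P (pp k) (qq k))) := by
          rw [← e]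
      _ = P (pp k) (qq k) + (P (pp k) (pp k) - P (pp k) (qq k)) := by rw [co0_add, a1', a2']
      _ = P (pp k) (pp k) := e.symm
  · have e : P (qq k) (qq k) = P (pp k) (qq k) - (P (pp k) (pp k) - P (pp k) (qq k)) := by
      calc P (qq k) (qq k) = (P (pp k) (pp k) + P (qq k) (qq k)) - P (pp k) (pp k) := by abel
        _ = (P (pp k) (qq k) + P (pp k) (qq k)) - P (pp k) (pp k) := by rw [h3]
        _ = P (pp k) (qq k) - (P (pp k) (pp k) - P (pp k) (qq k)) := by abel
    calc g • P (qq k) (qq k) = g • (P (pp k) (qq k) - (P (pp k) (pp k) - P (pp k) (qq k))) := by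
          rw [← e]
      _ = P (pp k) (qq k) - (P (pp k) (pp k) - P (pp k) (qq k)) := by rw [co0_sub, a1', a2']
      _ = P (qq k) (qq k) := e.symm

theorem off_OO_cases : ∀ i : GolayPt, i ∉ OO →
    i = aP ∨ i = bP ∨ ∃ k : Fin 7, i = pp k.val ∨ i = qq k.val := by decide +kernel

theorem fix_off {g : Co0} (hg : g ∈ CZ) (h1 : r4 g = 1) (i : GolayPt) (hi : i ∉ OO) :
    g • P i i = P i i := by
  rcases off_OO_cases i hi with rfl | rfl | ⟨k, rfl | rfl⟩
  · exact fix_Paa hg h1
  · exact fix_Pbb hg h1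
  · exact (fix_pq hg h1 k.val k.2).1
  · exact (fix_pq hg h1 k.val k.2).2

theorem stabCross_of_fix {g : Co0} (ha : g • P aP aP = P aP aP) : StabCross g := by
  have hall : ∀ i : GolayPt, ((g • P i i : leechLattice) : GolayPt → ℤ) ∈ stdCross := by
    intro i
    have h3 := P_rel_diag aP i
    have e : P aP aP - P i i = (2 : ℤ) • (P aP aP - P aP i) := by
      calc P aP aP - P i i = (P aP aP + P aP aP) - (P aP aP + P i i) := by abel
        _ = (P aP aP + P aP aP) - (P aP i + P aP i) := by rw [h3]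
        _ = (2 : ℤ) • (P aP aP - P aP i) := by module
    have e2 : P aP aP - g • P i i = (2 : ℤ) • (g • (P aP aP - P aP i)) := by
      rw [← co0_zsmul, ← e, co0_sub, ha]
    have e3 : (Pi.single aP 8 : GolayPt → ℤ) - ((g • P i i : leechLattice) : GolayPt → ℤ) =
        (2 : ℤ) • ((g • (P aP aP - P aP i) : leechLattice) : GolayPt → ℤ) := by
      rw [← P_diag_val aP]
      exact congrArg Subtype.val e2
    exact mem_stdCross_of_cong (g • P i i).2 (g • (P aP aP - P aP i)).2 aP 8 (Or.inl rfl)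
      (by rw [co0_sqNorm, sqNorm_F]) e3
  rintro v ⟨i, s, hs, hv⟩
  rcases hs with rfl | rfl
  · have : v = P i i := Subtype.ext (hv.trans (P_diag_val i).symm)
    rw [this]
    exact hall i
  · have : v = -P i i := by
      apply Subtype.ext
      rw [hv, Pi.single_neg]
      show _ = -((P i i : leechLattice) : GolayPt → ℤ)
      rw [P_diag_val]
    rw [this, co0_neg]
    exact neg_mem_stdCross (hall i)

theorem O2m_ok : inCode O2m = true := by decide +kernel

theorem O2_mem : O2 ∈ octads := by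
  have := Cfsg.Agent.Helper7.setOf_mem_wordsOfWeight O2m_ok
  have h8 : Cfsg.Agent.Helper7.wt O2m = 8 := by decide +kernel
  rw [h8] at this
  exact this

theorem O2_off : ∀ i : GolayPt, i ∈ O2 → i ∉ OO := by decide +kernel

/-- **The kernel of the action on the invariant 4-space is `{1, zz}`.** -/
theorem ker_r4 {g : Co0} (hg : g ∈ CZ) (h1 : r4 g = 1) : g = 1 ∨ g = zz := by
  have hfix := fix_off hg h1
  obtain ⟨c, hc, σ, hσ, rfl⟩ := stabCross_eq (stabCross_of_fix (fix_Paa hg h1))
  have key : ∀ i : GolayPt, i ∉ OO → σ i = i ∧ i ∉ c := by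
    intro i hi
    have e := mono_apply c hc σ hσ (P i i) i
    rw [hfix i hi, P_apply, P_apply, if_pos rfl] at e
    have hs : σ.symm i = i := by
      by_contra hne
      rw [if_neg hne] at e
      split_ifs at e <;> omega
    rw [if_pos hs] at e
    refine ⟨((Equiv.symm_apply_eq _).1 hs).symm, ?_⟩
    intro hic
    rw [if_pos hic] at e
    omega
  have hσ1 : σ = 1 := by
    refine Cfsg.Agent.Helper7.octad_fix_free O2_mem bP_O2 (g := σ) (Subgroup.mem_inf.2 ⟨hσ, ?_⟩)
      (key bP bP_OO).1
    rw [mem_fixingSubgroup_iff]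
    intro y hy
    exact (key y (O2_off y (Finset.mem_coe.1 hy))).1
  subst hσ1
  have hsub : c ⊆ OO := by
    intro i hic
    by_contra hi
    exact (key i hi).2 hic
  have hO8 : OO.card = 8 := OO_mem.2
  have hle := Finset.card_le_card hsub
  rcases Cfsg.Agent.Helper26.card_of_mem_supports hc with h | h | h | h | h
  · left
    have h := Finset.card_eq_zero.1 h
    subst h
    apply co0_ext
    intro x
    apply Subtype.ext
    funext p
    rw [mono_apply, if_neg (Finset.notMem_empty p), one_smul]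
    rfl
  · right
    have hcO : c = OO := Finset.eq_of_subset_of_card_le hsub (by rw [h, hO8])
    subst hcO
    apply co0_ext
    intro x
    apply Subtype.ext
    funext p
    rw [mono_apply, zz_apply]
    rfl
  · omega
  · omega
  · omega

end Cfsg.Agent.Helper92.McLInv
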