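import Cfsg.Agent.Helper92.McLInvKer
import Cfsg.Agent.Helper92.McLAut
import Cfsg.Agent.Helper39.McLInvA8SL
import Cfsg.Agent.Helper39.McLInvCARD
import Cfsg.Agent.Helper4.McLInvNSD
import Cfsg.Agent.Helper80.McLInvA8INV
import Cfsg.Agent.Helper80.McLInvONE
import Cfsg.Agent.Helper88.McLInvTRANS

/-!
# The involutions of the McLaughlin group

In the copy `GMs` of the McLaughlin group (the stabiliser of `vv` and `ww` in the automorphism
group of the Leech lattice) the centraliser of the sign change `zz` on an octad maps onto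
`SL(4, 2) ≃ A8` with kernel `{1, zz}`; it is a non-split double cover of `A8`, and all involutions
of `GMs` are conjugate.  The statements transfer to `Spor.McL`.
-/

set_option autoImplicit false
open scoped Pointwise

namespace Cfsg.Agent.Helper92.McLInv

open Cfsg MulAction Cfsg.Agent.Helper92.Mat Cfsg.Agent.Helper92.Co3Out Cfsg.Agent.Helper92.Co2Inv
open Cfsg.Agent.Helper7 (inCode setOf idx pt)

/-- the involution in the copy of the McLaughlin group -/
noncomputable def zG : ↥GMs := ⟨zz, zz_GMs⟩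

theorem zz_ne_one : zz ≠ 1 := by
  intro h
  have h1 := zz_apply (fV 5) none
  rw [h, one_smul, if_pos none_OO, fV5_none] at h1
  norm_num at h1

theorem zG_ne_one : zG ≠ 1 := fun h => zz_ne_one (congrArg Subtype.val h)

theorem zG_sq : zG * zG = 1 := Subtype.ext zz_sq

theorem orderOf_zG : orderOf zG = 2 :=
  orderOf_eq_prime (by rw [pow_two]; exact zG_sq) zG_ne_one

/-- the inclusion of the centraliser of `zG` into `CZ` -/
noncomputable def incl : ↥(Subgroup.centralizer ({zG} : Set ↥GMs)) →* ↥CZ where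
  toFun k := ⟨k.1.1, by
    have h := mem_GMs.1 k.1.2
    have hc := Subgroup.mem_centralizer_iff.1 k.2 zG rfl
    exact mem_CZ.2 ⟨h.1, h.2, (congrArg Subtype.val hc).symm⟩⟩
  map_one' := rfl
  map_mul' _ _ := rfl

theorem incl_surj : Function.Surjective incl := by
  rintro ⟨c, hc⟩
  have h := mem_CZ.1 hc
  refine ⟨⟨⟨c, mem_GMs.2 ⟨h.1, h.2.1⟩⟩, ?_⟩, rfl⟩
  rw [Subgroup.mem_centralizer_iff]
  intro y hy
  rw [Set.mem_singleton_iff.1 hy]
  exact Subtype.ext h.2.2.symm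

/-- the homomorphism of the centraliser onto the alternating group -/
noncomputable def phiA
    (e : Matrix.SpecialLinearGroup (Fin 4) (ZMod 2) ≃* ↥(alternatingGroup (Fin 8))) :
    ↥(Subgroup.centralizer ({zG} : Set ↥GMs)) →* ↥(alternatingGroup (Fin 8)) :=
  e.toMonoidHom.comp (rS.comp incl)

theorem phiA_surj (e : Matrix.SpecialLinearGroup (Fin 4) (ZMod 2) ≃* ↥(alternatingGroup (Fin 8))) :
    Function.Surjective (phiA e) :=
  e.surjective.comp (rS_surjective.comp incl_surj)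

theorem r4_zz : r4 zz = 1 := by
  unfold r4
  rw [zz8, Matrix.mul_one, LJ]

theorem phiA_ker (e : Matrix.SpecialLinearGroup (Fin 4) (ZMod 2) ≃* ↥(alternatingGroup (Fin 8)))
    (k : ↥(Subgroup.centralizer ({zG} : Set ↥GMs))) :
    phiA e k = 1 ↔ (k : ↥GMs) = 1 ∨ (k : ↥GMs) = zG := by
  have hk : phiA e k = 1 ↔ r4 k.1.1 = 1 := by
    show e (rS (incl k)) = 1 ↔ _
    rw [MulEquiv.map_eq_one_iff]
    constructor
    · intro h
      exact congrArg Subtype.val h
    · intro h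
      exact Subtype.ext h
  rw [hk]
  constructor
  · intro h
    rcases ker_r4 (incl k).2 h with h' | h'
    · left
      exact Subtype.ext h'
    · right
      exact Subtype.ext h'
  · rintro (h | h)
    · have : k.1.1 = 1 := congrArg Subtype.val h
      rw [this, r4_one]
    · have : k.1.1 = zz := congrArg Subtype.val h
      rw [this, r4_zz]

/-! ### The copy of the McLaughlin group -/

theorem vv_norm : sqNorm (vv : GolayPt → ℤ) = 32 := by decide +kernel

theorem ww_norm : sqNorm (ww : GolayPt → ℤ) = 32 := by decide +kernel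

theorem vv_ww : dotInt (vv : GolayPt → ℤ) (ww : GolayPt → ℤ) = -8 := by decide +kernel

theorem card_GMs : Nat.card ↥GMs = 898128000 :=
  (isMcL_stabilizer vv ww vv_norm ww_norm vv_ww).2

theorem exists_equiv : Nonempty (↥GMs ≃* ↥Spor.McL) := by
  obtain ⟨g₁, h1⟩ := exists_smul_eq_of_norm32 vv Spor.leechU vv_norm sqNorm_leechU
  obtain ⟨g₂, h2, h3⟩ := Cfsg.Agent.Helper26.co2_trans8 (g₁ • ww) (-Spor.leechV - Spor.leechU)
    (by rw [co0_sqNorm]; exact ww_norm) sqNorm_mclW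
    (by rw [Cfsg.Agent.Helper26.dot_map g₁ vv _ h1]; exact vv_ww) dot_U_mclW
  have ha : (g₂ * g₁) • vv = Spor.leechU := by rw [mul_smul, h1, h2]
  have hb0 : (g₂ * g₁) • ww = -Spor.leechV - Spor.leechU := by rw [mul_smul, h3]
  have hb : (g₂ * g₁) • (-ww - vv) = Spor.leechV := by
    rw [co0_sub, co0_neg, ha, hb0]
    abel
  have key : ∀ x : Co0, x ∈ stabilizer Co0 vv ⊓ stabilizer Co0 ww ↔
      (g₂ * g₁) * x * (g₂ * g₁)⁻¹ ∈ mclSub := by
    intro x
    rw [stab_pair_conj (g₂ * g₁) vv ww _ _ ha hb x, mem_mclSub, and_comm]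
  exact ⟨(conjEquiv (g₂ * g₁) _ _ key).trans McLOut.mclEquiv⟩

/-! ### The main statement in the copy -/

theorem main_GMs : (∀ x y : ↥GMs, orderOf x = 2 → orderOf y = 2 → IsConj x y) ∧
    ∃ t : ↥GMs, orderOf t = 2 ∧ Cfsg.IsNonsplitDoubleCover
      ↥(Subgroup.centralizer ({t} : Set ↥GMs)) ↥(alternatingGroup (Fin 8)) := by
  obtain ⟨e⟩ := Cfsg.Agent.Helper39.sl4_two_equiv_alt8
  have hzmem : zG ∈ Subgroup.centralizer ({zG} : Set ↥GMs) := by
    rw [Subgroup.mem_centralizer_iff]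
    intro y hy
    rw [Set.mem_singleton_iff.1 hy]
  have hzC : (⟨zG, hzmem⟩ : ↥(Subgroup.centralizer ({zG} : Set ↥GMs))) ≠ 1 :=
    fun h => zG_ne_one (congrArg Subtype.val h)
  have hker' : ∀ k : ↥(Subgroup.centralizer ({zG} : Set ↥GMs)),
      phiA e k = 1 ↔ k = 1 ∨ k = ⟨zG, hzmem⟩ := by
    intro k
    rw [phiA_ker]
    constructor
    · rintro (h | h)
      · left
        exact Subtype.ext h
      · right
        exact Subtype.ext h
    · rintro (h | h)
      · left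
        exact congrArg Subtype.val h
      · right
        exact congrArg Subtype.val h
  have hcardC := Cfsg.Agent.Helper39.card_of_ker_pair ⟨zG, hzmem⟩ hzC (phiA e) (phiA_surj e) hker'
  have hxG : x4W.prod ∈ GMs := mem_GMs.2 ⟨(mem_CZ.1 x4M).1, (mem_CZ.1 x4M).2.1⟩
  have htG : ttW.prod ∈ GMs := mem_GMs.2 ⟨(mem_CZ.1 ttM).1, (mem_CZ.1 ttM).2.1⟩
  have hxz : (⟨x4W.prod, hxG⟩ : ↥GMs) * zG = zG * ⟨x4W.prod, hxG⟩ :=
    Subtype.ext (mem_CZ.1 x4M).2.2
  have hxx : (⟨x4W.prod, hxG⟩ : ↥GMs) * ⟨x4W.prod, hxG⟩ = zG := Subtype.ext x4_sq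
  have htz : (⟨ttW.prod, htG⟩ : ↥GMs) * zG = zG * ⟨ttW.prod, htG⟩ :=
    Subtype.ext (mem_CZ.1 ttM).2.2
  have htt : (⟨ttW.prod, htG⟩ : ↥GMs) * ⟨ttW.prod, htG⟩ = 1 := Subtype.ext tt_sq
  have ht1 : (⟨ttW.prod, htG⟩ : ↥GMs) ≠ 1 := by
    intro h
    have h0 : ttW.prod = 1 := congrArg Subtype.val h
    have h1 := tt_img
    rw [h0, one_smul] at h1
    exact tt_ne1 (congrFun h1 (pt 0)).symm
  have htne : (⟨ttW.prod, htG⟩ : ↥GMs) ≠ zG := by
    intro h
    have h0 : ttW.prod = zz := congrArg Subtype.val h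
    have h1 := tt_img
    rw [h0] at h1
    have h2 := congrFun h1 (pt 1)
    rw [zz_apply, if_pos pt_OO_1] at h2
    exact tt_ne2 h2.symm
  have hs1 : (⟨saW.prod, saM⟩ : ↥GMs) * ⟨ttW.prod, htG⟩ * (⟨saW.prod, saM⟩ : ↥GMs)⁻¹ = zG := by
    have h : (⟨saW.prod, saM⟩ : ↥GMs) * ⟨ttW.prod, htG⟩ = zG * ⟨saW.prod, saM⟩ :=
      Subtype.ext sa_rel
    rw [h]
    group
  have hs2 : (⟨sbW.prod, sbM⟩ : ↥GMs) * ((⟨ttW.prod, htG⟩ : ↥GMs) * zG) *
      (⟨sbW.prod, sbM⟩ : ↥GMs)⁻¹ = zG := by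
    have h : (⟨sbW.prod, sbM⟩ : ↥GMs) * ((⟨ttW.prod, htG⟩ : ↥GMs) * zG) =
        zG * ⟨sbW.prod, sbM⟩ := Subtype.ext sb_rel
    rw [h]
    group
  have hcardG : ¬ 2 ^ 8 ∣ Nat.card ↥GMs := by
    rw [card_GMs]
    decide
  have : Finite ↥GMs := Nat.finite_of_card_ne_zero (by rw [card_GMs]; norm_num)
  refine ⟨Cfsg.Agent.Helper80.one_class_of_hom Cfsg.Agent.Helper80.alt8_invol_trichotomy zG
    orderOf_zG hcardG hcardC (phiA e) (phiA_surj e) (phiA_ker e) ⟨x4W.prod, hxG⟩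
    ⟨ttW.prod, htG⟩ ⟨saW.prod, saM⟩ ⟨sbW.prod, sbM⟩ hxz hxx htz htt ht1 htne hs1 hs2,
    zG, orderOf_zG, ?_⟩
  have hxmem : (⟨x4W.prod, hxG⟩ : ↥GMs) ∈ Subgroup.centralizer ({zG} : Set ↥GMs) := by
    rw [Subgroup.mem_centralizer_iff]
    intro y hy
    rw [Set.mem_singleton_iff.1 hy]
    exact hxz.symm
  exact Cfsg.Agent.Helper4.nonsplit_double_cover_of_hom ⟨zG, hzmem⟩ hzC
    (fun g => Subtype.ext (Subgroup.mem_centralizer_iff.1 g.2 zG rfl).symm) (phiA e) (phiA_surj e)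
    hker' ⟨⟨x4W.prod, hxG⟩, hxmem⟩ (Subtype.ext hxx)

/-- **The McLaughlin group has one class of involutions, with centraliser a non-split double
cover of `A8`.** -/
theorem main_McL : (∀ x y : ↥Spor.McL, orderOf x = 2 → orderOf y = 2 → IsConj x y) ∧
    ∃ t : ↥Spor.McL, orderOf t = 2 ∧ Cfsg.IsNonsplitDoubleCover
      ↥(Subgroup.centralizer ({t} : Set ↥Spor.McL)) ↥(alternatingGroup (Fin 8)) := by
  obtain ⟨e⟩ := exists_equiv
  exact Cfsg.Agent.Helper88.statement_transfer e main_GMs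

end Cfsg.Agent.Helper92.McLInv
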