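import Cfsg.Agent.Helper92.McLInvCore
import Cfsg.Agent.Helper92.LeechCensus32

/-!
# The centraliser of a sign change on an octad in a copy of the McLaughlin group: the orbit lemma

`zz` is the sign change on the octad `OO`; `vv = 4 e_a + 4 e_b` and `ww = -2` on an octad `O2`
disjoint from `OO` containing `a` and not `b`.  `CZ` is the centraliser of `zz` in the stabiliser
of `vv` and `ww`.  The main result is that an element of `CZ` maps `8 e_a` to one of fifteen
explicit vectors `yv i`.
-/

set_option autoImplicit false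
open scoped Pointwise

namespace Cfsg.Agent.Helper92.McLInv

open Cfsg MulAction Cfsg.Agent.Helper92.Mat Cfsg.Agent.Helper92.Co3Out Cfsg.Agent.Helper92.Co2Inv
open Cfsg.Agent.Helper7 (inCode setOf idx pt)

/-- the involution: the sign change on the octad -/
noncomputable def zz : Co0 := sc oM oM_ok

theorem zz_apply (x : leechLattice) (p : GolayPt) :
    ((zz • x : leechLattice) : GolayPt → ℤ) p =
      if p ∈ OO then -(x : GolayPt → ℤ) p else (x : GolayPt → ℤ) p := rfl

/-- the point `a` -/
def aP : GolayPt := pt 3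

/-- the point `b` -/
def bP : GolayPt := pt 9

/-- mask of the octad `O2` -/
def O2m : ℕ := 0x1ed08

/-- the octad `O2` -/
def O2 : Finset GolayPt := setOf O2m

/-- the vector `4 e_a + 4 e_b` -/
def vv : leechLattice := P aP bP

/-- coordinates of `ww` -/
def wwL : List ℤ := [0, 0, 0, -2, 0, 0, 0, 0, -2, 0, -2, -2, 0, -2, -2, -2, -2, 0, 0, 0, 0, 0, 0, 0]

theorem wwL_mem : vecL wwL ∈ leechLattice := mem_of_leechB (by decide +kernel)

/-- the vector `-2` on `O2` -/
def ww : leechLattice := ⟨vecL wwL, wwL_mem⟩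

theorem ww_apply : ∀ p : GolayPt, (ww : GolayPt → ℤ) p = if p ∈ O2 then -2 else 0 := by
  decide +kernel

/-- the copy of the McLaughlin group -/
def GMs : Subgroup Co0 := stabilizer Co0 vv ⊓ stabilizer Co0 ww

/-- the centraliser of `zz` in it -/
def CZ : Subgroup Co0 := GMs ⊓ Subgroup.centralizer {zz}

theorem mem_GMs {g : Co0} : g ∈ GMs ↔ g • vv = vv ∧ g • ww = ww := by
  rw [GMs, Subgroup.mem_inf, mem_stabilizer_iff, mem_stabilizer_iff]

theorem mem_CZ {g : Co0} : g ∈ CZ ↔ g • vv = vv ∧ g • ww = ww ∧ g * zz = zz * g := by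
  rw [CZ, Subgroup.mem_inf, mem_GMs, Subgroup.mem_centralizer_iff, and_assoc]
  constructor
  · rintro ⟨h1, h2, h3⟩
    exact ⟨h1, h2, (h3 zz rfl).symm⟩
  · rintro ⟨h1, h2, h3⟩
    refine ⟨h1, h2, fun h hh => ?_⟩
    rw [Set.mem_singleton_iff.1 hh]
    exact h3.symm

theorem t0_eq_neg_zz (x : leechLattice) : t0 • x = -(zz • x) := by
  apply Subtype.ext
  funext p
  show ((t0 • x : leechLattice) : GolayPt → ℤ) p = -((zz • x : leechLattice) : GolayPt → ℤ) p
  rw [t0_apply, zz_apply]
  by_cases hp : p ∈ OO
  · rw [if_pos hp, if_neg (fun h => (mem_ocM p).1 h hp), neg_neg]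
  · rw [if_neg hp, if_pos ((mem_ocM p).2 hp)]

theorem comm_t0 {g : Co0} (h : g * zz = zz * g) : g * t0 = t0 * g := by
  apply co0_ext
  intro x
  rw [mul_smul, mul_smul, t0_eq_neg_zz, t0_eq_neg_zz, co0_neg, ← mul_smul, h, mul_smul]

/-! ### The coordinate vector modulo 2 on the whole lattice -/

theorem c8_add (x y : leechLattice) : c8 (x + y) = c8 x + c8 y := by
  funext i
  show ((cfHom i (x + y) : ℤ) : ZMod 2) = ((cfHom i x : ℤ) : ZMod 2) + ((cfHom i y : ℤ) : ZMod 2)
  rw [map_add, Int.cast_add]

theorem c8_two (x : leechLattice) : c8 ((2 : ℤ) • x) = 0 := by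
  funext i
  show ((cfHom i ((2 : ℤ) • x) : ℤ) : ZMod 2) = 0
  rw [map_zsmul, smul_eq_mul, Int.cast_mul]
  have : ((2 : ℤ) : ZMod 2) = 0 := by decide
  rw [this, zero_mul]

/-- the vector `4 e_a - 4 e_∞` -/
def c0 : leechLattice := P aP aP - P aP none

theorem Paa_eq : P aP aP = P none none + (2 : ℤ) • c0 := by
  have h3 := P_rel_diag aP none
  have e : P aP aP - P none none = (2 : ℤ) • c0 := by
    rw [c0]
    calc P aP aP - P none none = (P aP aP + P aP aP) - (P aP aP + P none none) := by abel
      _ = (P aP aP + P aP aP) - (P aP none + P aP none) := by rw [h3]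
      _ = (2 : ℤ) • (P aP aP - P aP none) := by module
  rw [← e]
  abel

theorem c8_Paa (k : Co0) : c8 (k • P aP aP) = c8 (k • P none none) := by
  rw [Paa_eq, co0_add, co0_zsmul, c8_add, c8_two, add_zero]

/-! ### The image of `4 e_a - 4 e_b` -/

/-- the vector `4 e_a - 4 e_b` -/
def u0 : leechLattice := P aP aP - P aP bP

theorem Paa_eq' : P aP aP = vv + u0 := by
  rw [vv, u0]
  abel

theorem u0_norm : sqNorm (u0 : GolayPt → ℤ) = 32 := by decide +kernel

theorem u0_OO : ∀ p ∈ OO, (u0 : GolayPt → ℤ) p = 0 := by decide +kernel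

theorem u0_vv : dotInt (u0 : GolayPt → ℤ) (vv : GolayPt → ℤ) = 0 := by decide +kernel

theorem u0_ww : dotInt (u0 : GolayPt → ℤ) (ww : GolayPt → ℤ) = -8 := by decide +kernel

theorem vv_cases : ∀ p : GolayPt, (vv : GolayPt → ℤ) p = 0 ∨ (vv : GolayPt → ℤ) p = 4 := by
  decide +kernel

theorem none_OO : (none : GolayPt) ∈ OO := by decide +kernel

theorem zz_u0 : zz • u0 = u0 := by
  apply Subtype.ext
  funext p
  rw [zz_apply]
  split_ifs with hp
  · rw [u0_OO p hp]
    rfl
  · rfl

/-! ### The code word check -/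

/-- mask of `O2` without `a` -/
def O2a : ℕ := 0x1ed00

/-- mask of the complement of `OO ∪ O2` without `b` -/
def O3b : ℕ := 0x561030

/-- the seven pairs -/
def pairOK (i j : ℕ) : Bool :=
  (i == 8 && j == 4) || (i == 15 && j == 5) || (i == 10 && j == 17) || (i == 11 && j == 22) ||
  (i == 13 && j == 12) || (i == 14 && j == 20) || (i == 16 && j == 18)

/-- the check on a code word: if it contains `a`, `b`, a point `i` of `O2` and a point `j` of the
third octad, and no further point off `OO`, then `(i, j)` is one of the seven pairs -/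
def cwPred (m : ℕ) : Bool :=
  !(m.testBit 3 && m.testBit 9) ||
  (List.range 24).all fun i => !(m.testBit i && O2a.testBit i) ||
    (List.range 24).all fun j => !(m.testBit j && O3b.testBit j) ||
      (!((List.range 24).all fun k =>
          !(m.testBit k && ocM.testBit k) || (k == 3 || k == 9 || k == i || k == j)) ||
        pairOK i j)

theorem cw_chk :
    Cfsg.Agent.Helper7.allRange (fun c => cwPred (Cfsg.Agent.Helper7.enc c)) 12 0 = true := by
  decide +kernel

theorem cwPred_spec {m : ℕ} (h : cwPred m = true) (h3 : m.testBit 3 = true)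
    (h9 : m.testBit 9 = true) (i j : ℕ) (hi : i < 24) (hj : j < 24) (hi1 : m.testBit i = true)
    (hi2 : O2a.testBit i = true) (hj1 : m.testBit j = true) (hj2 : O3b.testBit j = true)
    (hall : ∀ k < 24, m.testBit k = true → ocM.testBit k = true →
      k = 3 ∨ k = 9 ∨ k = i ∨ k = j) : pairOK i j = true := by
  unfold cwPred at h
  rw [h3, h9] at h
  have h1 : ((List.range 24).all fun i => !(m.testBit i && O2a.testBit i) ||
    (List.range 24).all fun j => !(m.testBit j && O3b.testBit j) ||
      (!((List.range 24).all fun k =>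
          !(m.testBit k && ocM.testBit k) || (k == 3 || k == 9 || k == i || k == j)) ||
        pairOK i j)) = true := by simpa using h
  have h2 := List.all_eq_true.1 h1 i (List.mem_range.2 hi)
  rw [hi1, hi2] at h2
  have h3' : ((List.range 24).all fun j => !(m.testBit j && O3b.testBit j) ||
      (!((List.range 24).all fun k =>
          !(m.testBit k && ocM.testBit k) || (k == 3 || k == 9 || k == i || k == j)) ||
        pairOK i j)) = true := by simpa using h2
  have h4 := List.all_eq_true.1 h3' j (List.mem_range.2 hj)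
  rw [hj1, hj2] at h4
  have h5 : (!((List.range 24).all fun k =>
          !(m.testBit k && ocM.testBit k) || (k == 3 || k == 9 || k == i || k == j)) ||
        pairOK i j) = true := by simpa using h4
  have h6 : ((List.range 24).all fun k =>
      !(m.testBit k && ocM.testBit k) || (k == 3 || k == 9 || k == i || k == j)) = true := by
    rw [List.all_eq_true]
    intro k hk
    rw [List.mem_range] at hk
    by_cases hb1 : m.testBit k = true
    · by_cases hb2 : ocM.testBit k = true
      · rcases hall k hk hb1 hb2 with rfl | rfl | rfl | rfl <;> simp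
      · simp [hb2]
    · simp [hb1]
  rw [h6] at h5
  simpa using h5

/-- the points `p` of the seven pairs -/
def ppL : List ℕ := [8, 15, 10, 11, 13, 14, 16]

/-- the points `q` of the seven pairs -/
def qqL : List ℕ := [4, 5, 17, 22, 12, 20, 18]

/-- the `k`-th point `p` -/
def pp (k : ℕ) : GolayPt := pt (ppL.getD k 0)

/-- the `k`-th point `q` -/
def qq (k : ℕ) : GolayPt := pt (qqL.getD k 0)

theorem cw_pairs {L : Finset GolayPt} (hL : L ∈ supports (golayCode : Set (GolayPt → ZMod 2)))
    (ha : aP ∈ L) (hb : bP ∈ L) {p q : GolayPt} (hp : p ∈ L) (hq : q ∈ L)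
    (hp2 : p ∈ setOf O2a) (hq2 : q ∈ setOf O3b)
    (hall : ∀ i, i ∉ OO → i ∈ L → i = aP ∨ i = bP ∨ i = p ∨ i = q) :
    ∃ k < 7, p = pp k ∧ q = qq k := by
  obtain ⟨w, hw, rfl⟩ := hL
  obtain ⟨m, rfl, hm⟩ := Cfsg.Agent.Helper7.forall_code cwPred cw_chk hw
  rw [Cfsg.Agent.Helper7.support_wordOf] at ha hb hp hq hall
  rw [Cfsg.Agent.Helper7.mem_setOf] at ha hb hp hq hp2 hq2
  have ia : idx aP = 3 := Cfsg.Agent.Helper7.idx_pt (by norm_num)
  have ib : idx bP = 9 := Cfsg.Agent.Helper7.idx_pt (by norm_num)
  rw [ia] at ha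
  rw [ib] at hb
  have hk := cwPred_spec hm ha hb (idx p) (idx q) (Cfsg.Agent.Helper7.idx_lt p)
    (Cfsg.Agent.Helper7.idx_lt q) hp hp2 hq hq2 (by
      intro k hk hb1 hb2
      have h1 : pt k ∈ setOf m := by
        rw [Cfsg.Agent.Helper7.mem_setOf, Cfsg.Agent.Helper7.idx_pt hk]
        exact hb1
      have h2 : pt k ∉ OO := by
        rw [← mem_ocM, Cfsg.Agent.Helper7.mem_setOf, Cfsg.Agent.Helper7.idx_pt hk]
        exact hb2
      rcases hall (pt k) h2 h1 with h | h | h | h
      · left
        have := congrArg idx h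
        rwa [Cfsg.Agent.Helper7.idx_pt hk, ia] at this
      · right; left
        have := congrArg idx h
        rwa [Cfsg.Agent.Helper7.idx_pt hk, ib] at this
      · right; right; left
        have := congrArg idx h
        rwa [Cfsg.Agent.Helper7.idx_pt hk] at this
      · right; right; right
        have := congrArg idx h
        rwa [Cfsg.Agent.Helper7.idx_pt hk] at this)
  simp only [pairOK, Bool.or_eq_true, Bool.and_eq_true, beq_iff_eq] at hk
  have hpe := (Cfsg.Agent.Helper7.pt_idx p).symm
  have hqe := (Cfsg.Agent.Helper7.pt_idx q).symm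
  rcases hk with ((((((h | h) | h) | h) | h) | h) | h)
  · exact ⟨0, by norm_num, (hpe.trans (congrArg pt h.1) : p = pp 0),
      (hqe.trans (congrArg pt h.2) : q = qq 0)⟩
  · exact ⟨1, by norm_num, (hpe.trans (congrArg pt h.1) : p = pp 1),
      (hqe.trans (congrArg pt h.2) : q = qq 1)⟩
  · exact ⟨2, by norm_num, (hpe.trans (congrArg pt h.1) : p = pp 2),
      (hqe.trans (congrArg pt h.2) : q = qq 2)⟩
  · exact ⟨3, by norm_num, (hpe.trans (congrArg pt h.1) : p = pp 3),
      (hqe.trans (congrArg pt h.2) : q = qq 3)⟩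
  · exact ⟨4, by norm_num, (hpe.trans (congrArg pt h.1) : p = pp 4),
      (hqe.trans (congrArg pt h.2) : q = qq 4)⟩
  · exact ⟨5, by norm_num, (hpe.trans (congrArg pt h.1) : p = pp 5),
      (hqe.trans (congrArg pt h.2) : q = qq 5)⟩
  · exact ⟨6, by norm_num, (hpe.trans (congrArg pt h.1) : p = pp 6),
      (hqe.trans (congrArg pt h.2) : q = qq 6)⟩

/-! ### Vectors with two coordinates `±4` -/

theorem dot_pv_pair {x y : GolayPt} (hxy : x ≠ y) (S : Finset GolayPt) (hS : S ⊆ {x, y})
    (f : GolayPt → ℤ) :
    dotInt (pv {x, y} S) f = pv {x, y} S x * f x + pv {x, y} S y * f y := by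
  unfold dotInt
  rw [← Finset.sum_pair hxy (f := fun i => pv {x, y} S i * f i)]
  symm
  apply Finset.sum_subset (Finset.subset_univ _)
  intro i _ hi
  have h0 : dv {x, y} S i = 0 := by
    by_contra h
    exact hi ((dv_ne_zero hS i).1 h)
  show 2 * dv {x, y} S i * f i = 0
  rw [h0]
  ring

theorem O2a_of : ∀ x : GolayPt, x ∈ O2 → x ≠ aP → x ∈ setOf O2a := by decide +kernel

theorem O3b_of : ∀ x : GolayPt, x ∉ O2 → x ∉ OO → x ≠ bP → x ∈ setOf O3b := by decide +kernel

theorem u0_apply : ∀ i : GolayPt, (u0 : GolayPt → ℤ) i =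
    (if i = aP then 4 else 0) - (if i = bP then 4 else 0) := by decide +kernel

theorem aP_O2 : aP ∈ O2 := by decide +kernel

theorem bP_O2 : bP ∉ O2 := by decide +kernel

theorem aP_ne_bP : aP ≠ bP := by decide +kernel

theorem aP_OO : aP ∉ OO := by decide +kernel

theorem bP_OO : bP ∉ OO := by decide +kernel

theorem compl_OO_card : (OOᶜ : Finset GolayPt).card = 16 := by decide +kernel

section orbit

variable {g : Co0} (hg : g ∈ CZ)
include hg

omit hg in
theorem gu_norm : sqNorm ((g • u0 : leechLattice) : GolayPt → ℤ) = 32 := by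
  rw [co0_sqNorm, u0_norm]

theorem gu_OO (p : GolayPt) (hp : p ∈ OO) : ((g • u0 : leechLattice) : GolayPt → ℤ) p = 0 := by
  have h1 : zz • (g • u0) = g • u0 := by
    rw [← mul_smul, ← (mem_CZ.1 hg).2.2, mul_smul, zz_u0]
  have h2 : ((zz • (g • u0) : leechLattice) : GolayPt → ℤ) p =
      ((g • u0 : leechLattice) : GolayPt → ℤ) p := by rw [h1]
  rw [zz_apply, if_pos hp] at h2
  omega

theorem gu_vv : dotInt ((g • u0 : leechLattice) : GolayPt → ℤ) (vv : GolayPt → ℤ) = 0 := by
  have h := co0_dotInt g u0 vv
  rw [(mem_CZ.1 hg).1] at h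
  rw [h, u0_vv]

theorem gu_ww : dotInt ((g • u0 : leechLattice) : GolayPt → ℤ) (ww : GolayPt → ℤ) = -8 := by
  have h := co0_dotInt g u0 ww
  rw [(mem_CZ.1 hg).2.1] at h
  rw [h, u0_ww]

theorem gPaa : g • P aP aP = vv + g • u0 := by
  rw [Paa_eq', co0_add, (mem_CZ.1 hg).1]

/-- the key relation: off the octad, `vv + g u0` is twice the lattice vector `g c0` -/
theorem rel_coord (p : GolayPt) (hp : p ∉ OO) :
    (vv : GolayPt → ℤ) p + ((g • u0 : leechLattice) : GolayPt → ℤ) p =
      2 * ((g • c0 : leechLattice) : GolayPt → ℤ) p := by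
  have hs : Supp (g • P none none) :=
    supp_smul8 (comm_t0 (mem_CZ.1 hg).2.2) (supp_P none_OO none_OO)
  have e : vv + g • u0 = g • P none none + (2 : ℤ) • (g • c0) := by
    rw [← gPaa hg, Paa_eq, co0_add, co0_zsmul]
  have h2 : ((vv + g • u0 : leechLattice) : GolayPt → ℤ) p =
      ((g • P none none + (2 : ℤ) • (g • c0) : leechLattice) : GolayPt → ℤ) p := by rw [e]
  have h3 : ((g • P none none + (2 : ℤ) • (g • c0) : leechLattice) : GolayPt → ℤ) p =
      ((g • P none none : leechLattice) : GolayPt → ℤ) p +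
        2 * ((g • c0 : leechLattice) : GolayPt → ℤ) p := rfl
  have h4 : ((vv + g • u0 : leechLattice) : GolayPt → ℤ) p =
      (vv : GolayPt → ℤ) p + ((g • u0 : leechLattice) : GolayPt → ℤ) p := rfl
  rw [h3, h4, hs p hp] at h2
  omega

/-! ### The octad case is impossible -/

theorem not_evenOct : ((g • u0 : leechLattice) : GolayPt → ℤ) ∉ evenOct32 := by
  rintro ⟨o, ho, S, hS, hu⟩
  have hSo : S ⊆ o := Finset.mem_powerset.1 (Finset.mem_filter.1 hS).1
  have ho8 : o.card = 8 := ho.2
  have hval : ∀ p, ((g • u0 : leechLattice) : GolayPt → ℤ) p = dv o S p := fun p => by rw [hu]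
  have hne : ∀ p, dv o S p ≠ 0 ↔ p ∈ o := fun p => dv_ne_zero hSo p
  rcases Int.emod_two_eq_zero_or_one (((g • c0 : leechLattice) : GolayPt → ℤ) none) with hev | hod
  · -- even: a point of the octad gives an odd coordinate
    obtain ⟨p, hp⟩ : o.Nonempty := by
      rw [← Finset.card_pos, ho8]
      norm_num
    have hpO : p ∉ OO := by
      intro h
      have := gu_OO hg p h
      rw [hval] at this
      exact (hne p).2 hp this
    have h1 := rel_coord hg p hpO
    rw [hval] at h1
    have h2 := (hne p).2 hp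
    have h3 := leech_parity (g • c0).2 p none
    rcases dv_cases o S p with e | e | e <;> rcases vv_cases p with e' | e' <;> omega
  · -- odd: every point off `OO` lies in the octad
    have hsub : (OOᶜ : Finset GolayPt) ⊆ o := by
      intro p hp
      have hpO : p ∉ OO := Finset.mem_compl.1 hp
      have h1 := rel_coord hg p hpO
      rw [hval] at h1
      have h3 := leech_parity (g • c0).2 p none
      rw [← hne p]
      intro h0
      rcases vv_cases p with e' | e' <;> omega
    have := Finset.card_le_card hsub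
    rw [compl_OO_card, ho8] at this
    omega

/-! ### The pair case -/

theorem pair_main {p q : GolayPt} {S : Finset GolayPt} (hpq : p ≠ q) (hS : S ⊆ {p, q})
    (hu : ((g • u0 : leechLattice) : GolayPt → ℤ) = pv {p, q} S)
    (hp : p ∈ O2) (hq : q ∉ O2) (hUp : pv {p, q} S p = 4) :
    g • P aP aP = P aP aP ∨ ∃ k < 7, g • P aP aP = vv + P (pp k) (qq k) ∨
      g • P aP aP = vv + (P (pp k) (pp k) - P (pp k) (qq k)) := by
  have hval : ∀ i, ((g • u0 : leechLattice) : GolayPt → ℤ) i = pv {p, q} S i :=
    fun i => by rw [hu]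
  have hne : ∀ i, pv {p, q} S i ≠ 0 ↔ i ∈ ({p, q} : Finset GolayPt) := by
    intro i
    rw [← dv_ne_zero hS i]
    show 2 * dv {p, q} S i ≠ 0 ↔ _
    omega
  have hcases : ∀ i, pv {p, q} S i = 0 ∨ pv {p, q} S i = 4 ∨ pv {p, q} S i = -4 := by
    intro i
    show 2 * dv {p, q} S i = 0 ∨ 2 * dv {p, q} S i = 4 ∨ 2 * dv {p, q} S i = -4
    rcases dv_cases {p, q} S i with e | e | e <;> omega
  have hmem : ∀ i, i ∈ ({p, q} : Finset GolayPt) ↔ i = p ∨ i = q := fun i => by
    rw [Finset.mem_insert, Finset.mem_singleton]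
  have hqT : pv {p, q} S q ≠ 0 := (hne q).2 ((hmem q).2 (Or.inr rfl))
  have hUq : pv {p, q} S q = 4 ∨ pv {p, q} S q = -4 := by
    rcases hcases q with e | e | e
    · exact absurd e hqT
    · exact Or.inl e
    · exact Or.inr e
  have hqO : q ∉ OO := fun h => hqT (by rw [← hval]; exact gu_OO hg q h)
  have hpO : p ∉ OO := fun h => (hne p).2 ((hmem p).2 (Or.inl rfl))
    (by rw [← hval]; exact gu_OO hg p h)
  have hvv := gu_vv hg
  rw [dotInt_comm, vv, dot_P, hval, hval] at hvv
  by_cases haT : aP ∈ ({p, q} : Finset GolayPt)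
  · have hap : aP = p := by
      rcases (hmem aP).1 haT with h | h
      · exact h
      · exact absurd (h ▸ aP_O2) hq
    have hbT : bP ∈ ({p, q} : Finset GolayPt) := by
      rw [← hne]
      have := (hne aP).2 haT
      omega
    have hbq : bP = q := by
      rcases (hmem bP).1 hbT with h | h
      · exact absurd (hap.trans h.symm) aP_ne_bP
      · exact h
    left
    have e : g • u0 = u0 := by
      apply Subtype.ext
      funext i
      rw [hval, u0_apply]
      by_cases hia : i = aP
      · rw [if_pos hia, if_neg (fun h => aP_ne_bP (hia.symm.trans h)), hia, hap, hUp]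
        rfl
      · rw [if_neg hia]
        by_cases hib : i = bP
        · rw [if_pos hib, hib]
          rw [hap] at hvv
          omega
        · rw [if_neg hib]
          have : i ∉ ({p, q} : Finset GolayPt) := by
            rw [hmem, ← hap, ← hbq]
            tauto
          have h0 := (not_iff_not.2 (hne i)).2 this
          push Not at h0
          rw [h0]
          rfl
    rw [gPaa hg, e, ← Paa_eq']
  · have hUa : pv {p, q} S aP = 0 := by
      have h0 := (not_iff_not.2 (hne aP)).2 haT
      push Not at h0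
      exact h0
    have hUb : pv {p, q} S bP = 0 := by omega
    have hbT : bP ∉ ({p, q} : Finset GolayPt) := by
      rw [← hne]
      push Not
      exact hUb
    have hpa : p ≠ aP := fun h => haT ((hmem aP).2 (Or.inl h.symm))
    have hpb : p ≠ bP := fun h => hbT ((hmem bP).2 (Or.inl h.symm))
    have hqa : q ≠ aP := fun h => haT ((hmem aP).2 (Or.inr h.symm))
    have hqb : q ≠ bP := fun h => hbT ((hmem bP).2 (Or.inr h.symm))
    have hvvv : ∀ i, (vv : GolayPt → ℤ) i = (if i = aP then 4 else 0) + (if i = bP then 4 else 0) :=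
      fun i => P_apply aP bP i
    have hL := leech_lvl_two (g • c0).2
    have memL : ∀ i, i ∈ (Finset.univ.filter fun i =>
        ((g • c0 : leechLattice) : GolayPt → ℤ) i % 4 = 2) ↔
        ((g • c0 : leechLattice) : GolayPt → ℤ) i % 4 = 2 := fun i => by
      rw [Finset.mem_filter]
      simp
    have hk := cw_pairs hL
      (by
        rw [memL]
        have h1 := rel_coord hg aP aP_OO
        rw [hval, hUa, hvvv, if_pos rfl, if_neg aP_ne_bP] at h1
        omega)
      (by
        rw [memL]
        have h1 := rel_coord hg bP bP_OO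
        rw [hval, hUb, hvvv, if_neg (Ne.symm aP_ne_bP), if_pos rfl] at h1
        omega)
      (p := p) (q := q)
      (by
        rw [memL]
        have h1 := rel_coord hg p hpO
        rw [hval, hUp, hvvv, if_neg hpa, if_neg hpb] at h1
        omega)
      (by
        rw [memL]
        have h1 := rel_coord hg q hqO
        rw [hval, hvvv, if_neg hqa, if_neg hqb] at h1
        omega)
      (O2a_of p hp hpa) (O3b_of q hq hqO hqb)
      (by
        intro i hiO hiL
        rw [memL] at hiL
        by_contra hcon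
        push Not at hcon
        have h1 := rel_coord hg i hiO
        have hiT : i ∉ ({p, q} : Finset GolayPt) := by
          rw [hmem]
          tauto
        have h0 := (not_iff_not.2 (hne i)).2 hiT
        push Not at h0
        rw [hval, h0, hvvv, if_neg hcon.1, if_neg hcon.2.1] at h1
        omega)
    obtain ⟨k, hk7, rfl, rfl⟩ := hk
    right
    refine ⟨k, hk7, ?_⟩
    rw [gPaa hg]
    have hother : ∀ i, i ≠ pp k → i ≠ qq k → pv {pp k, qq k} S i = 0 := by
      intro i h1 h2
      have hiT : i ∉ ({pp k, qq k} : Finset GolayPt) := by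
        rw [hmem]
        tauto
      have h0 := (not_iff_not.2 (hne i)).2 hiT
      push Not at h0
      exact h0
    rcases hUq with hq4 | hq4
    · left
      congr 1
      apply Subtype.ext
      funext i
      rw [hval, P_apply]
      by_cases hip : i = pp k
      · rw [if_pos hip, if_neg (fun h => hpq (hip.symm.trans h)), hip, hUp]
        rfl
      · rw [if_neg hip]
        by_cases hiq : i = qq k
        · rw [if_pos hiq, hiq, hq4]
          rfl
        · rw [if_neg hiq, hother i hip hiq]
          rfl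
    · right
      congr 1
      apply Subtype.ext
      funext i
      have hsub : ((P (pp k) (pp k) - P (pp k) (qq k) : leechLattice) : GolayPt → ℤ) i =
          ((P (pp k) (pp k) : leechLattice) : GolayPt → ℤ) i -
            ((P (pp k) (qq k) : leechLattice) : GolayPt → ℤ) i := rfl
      rw [hval, hsub, P_apply, P_apply]
      by_cases hip : i = pp k
      · rw [if_pos hip, if_neg (fun h => hpq (hip.symm.trans h)), hip, hUp]
        rfl
      · rw [if_neg hip]
        by_cases hiq : i = qq k
        · rw [if_pos hiq, hiq, hq4]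
          rfl
        · rw [if_neg hiq, hother i hip hiq]
          rfl

/-- **The orbit lemma**: an element of the centraliser maps `8 e_a` to one of fifteen vectors. -/
theorem orbit_Paa : g • P aP aP = P aP aP ∨ ∃ k < 7, g • P aP aP = vv + P (pp k) (qq k) ∨
    g • P aP aP = vv + (P (pp k) (pp k) - P (pp k) (qq k)) := by
  have h0 : ((g • u0 : leechLattice) : GolayPt → ℤ) none % 2 = 0 := by
    rw [gu_OO hg none none_OO]
    rfl
  rcases even32_mem (g • u0).2 gu_norm h0 with h | h
  · exact absurd h (not_evenOct hg)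
  · obtain ⟨T, hT, S, hS, hu⟩ := h
    obtain ⟨x, y, hxy, rfl⟩ := Finset.card_eq_two.1 hT
    have hS' : S ⊆ {x, y} := Finset.mem_powerset.1 hS
    have hww := gu_ww hg
    rw [hu, dot_pv_pair hxy S hS', ww_apply, ww_apply] at hww
    have hx4 : pv {x, y} S x = 4 ∨ pv {x, y} S x = -4 := by
      have h1 := (dv_ne_zero hS' x).2 (by simp)
      show 2 * dv {x, y} S x = 4 ∨ 2 * dv {x, y} S x = -4
      rcases dv_cases {x, y} S x with e | e | e <;> omega
    have hy4 : pv {x, y} S y = 4 ∨ pv {x, y} S y = -4 := by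
      have h1 := (dv_ne_zero hS' y).2 (by simp)
      show 2 * dv {x, y} S y = 4 ∨ 2 * dv {x, y} S y = -4
      rcases dv_cases {x, y} S y with e | e | e <;> omega
    by_cases hxO : x ∈ O2 <;> by_cases hyO : y ∈ O2
    · rw [if_pos hxO, if_pos hyO] at hww
      omega
    · rw [if_pos hxO, if_neg hyO] at hww
      exact pair_main hg hxy hS' hu hxO hyO (by omega)
    · rw [if_neg hxO, if_pos hyO] at hww
      have hc : ({x, y} : Finset GolayPt) = {y, x} := Finset.pair_comm x y
      rw [hc] at hu hS' hww
      exact pair_main hg (Ne.symm hxy) hS' hu hyO hxO (by omega)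
    · rw [if_neg hxO, if_neg hyO] at hww
      omega

end orbit

end Cfsg.Agent.Helper92.McLInv
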